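import Cfsg.Agent.Lib.Sym.Alt

/-!
# The hook formula and the weight

The degree of a character of the symmetric group times the product of the hook lengths is the
group order; the weight bounds the defect from below and the cycles of length divisible by `p` of
an element where the character does not vanish from above.
-/

set_option autoImplicit false

namespace SFock

open Finset Cfsg CT

variable {N : ℕ}

/-- `1 / (b - j)!`, zero for `b < j`. -/
noncomputable def rf (b j : ℕ) : ℂ := if j ≤ b then (((b - j).factorial : ℕ) : ℂ)⁻¹ else 0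

theorem rf_pred {b : ℕ} (j : ℕ) : (if 1 ≤ b then rf (b - 1) j else 0) = ((b : ℂ) - j) * rf b j := by
  unfold rf
  by_cases h : j < b
  · obtain ⟨k, rfl⟩ : ∃ k, b = j + k + 1 := ⟨b - j - 1, by omega⟩
    rw [if_pos (by omega), if_pos (by omega), if_pos (by omega),
      show j + k + 1 - 1 - j = k by omega, show j + k + 1 - j = k + 1 by omega, Nat.factorial_succ]
    have h1 : ((k.factorial : ℕ) : ℂ) ≠ 0 := by exact_mod_cast k.factorial_ne_zero
    have h2 : ((k : ℂ) + 1) ≠ 0 := by exact_mod_cast k.succ_ne_zero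
    push_cast
    field_simp
    ring
  · by_cases h' : j = b
    · subst h'
      simp only [sub_self, zero_mul]
      split_ifs <;> first | rfl | omega
    · rw [if_neg (show ¬ j ≤ b by omega), mul_zero]
      split_ifs <;> first | rfl | omega

theorem rf_mul_factorial (b j : ℕ) : rf b j * (b.factorial : ℂ) = (b.descFactorial j : ℂ) := by
  unfold rf
  split_ifs with h
  · rw [← Nat.factorial_mul_descFactorial h]
    have h1 : (((b - j).factorial : ℕ) : ℂ) ≠ 0 := by exact_mod_cast (b - j).factorial_ne_zero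
    push_cast
    field_simp
  · rw [Nat.descFactorial_of_lt (by omega)]; simp

/-- The determinant of the reciprocal factorials. -/
noncomputable def dF (β : Fin N → ℕ) : ℂ :=
  ∑ σ : Equiv.Perm (Fin N), ((Equiv.Perm.sign σ : ℤ) : ℂ) * ∏ i, rf (β i) (σ i)

theorem X_replicate_one (n : ℕ) : ∀ β : Fin N → ℕ, ∑ i, β i = d0 N + n →
    X N (Multiset.replicate n 1) β = (n.factorial : ℂ) * dF β := by
  induction n with
  | zero =>
    intro β hβ
    rw [Multiset.replicate_zero, X_zero, co_aD, dF, Nat.factorial_zero, Nat.cast_one, one_mul]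
    refine Finset.sum_congr rfl fun σ _ => ?_
    split_ifs with h
    · subst h
      simp [rf, pv]
    · rw [eq_comm, mul_eq_zero]
      right
      by_contra h1
      have h2 : ∀ i, pv σ i ≤ β i := fun i => by
        by_contra h3
        exact h1 (Finset.prod_eq_zero (mem_univ i) (if_neg h3))
      apply h
      funext i
      exact (Finset.sum_eq_sum_iff_of_le fun i _ => h2 i).1 (by rw [sum_pv, hβ, add_zero]) i
        (mem_univ i)
  | succ n ih =>
    intro β hβ
    rw [Multiset.replicate_succ, X_cons, L]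
    have h1 : ∀ i, (if 1 ≤ β i then X N (Multiset.replicate n 1) (β - sg i 1) else 0) =
        (n.factorial : ℂ) * ∑ σ : Equiv.Perm (Fin N), ((Equiv.Perm.sign σ : ℤ) : ℂ) *
          ((((β i : ℕ) : ℂ) - (σ i : ℕ)) * ∏ k, rf (β k) (σ k)) := by
      intro i
      have h2 : ∀ σ : Equiv.Perm (Fin N), (((β i : ℕ) : ℂ) - (σ i : ℕ)) * ∏ k, rf (β k) (σ k) =
          if 1 ≤ β i then ∏ k, rf ((β - sg i 1 : Fin N → ℕ) k) (σ k) else 0 := by
        intro σ
        rw [← Finset.mul_prod_erase _ _ (mem_univ i), ← mul_assoc, ← rf_pred]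
        split_ifs
        · rw [← Finset.mul_prod_erase _ _ (mem_univ i), sub_sg_apply, if_pos rfl]
          congr 1
          refine Finset.prod_congr rfl fun k hk => ?_
          rw [sub_sg_apply, if_neg (mem_erase.1 hk).1]
        · rw [zero_mul]
      simp only [h2]
      split_ifs with h
      · rw [ih _ (by have := sum_sub_single h; omega), dF]
      · simp
    simp only [h1]
    rw [← Finset.mul_sum, Finset.sum_comm, Nat.factorial_succ, dF, Nat.cast_mul,
      mul_comm ((n + 1 : ℕ) : ℂ), mul_assoc, Finset.mul_sum (a := ((n + 1 : ℕ) : ℂ))]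
    congr 1
    refine Finset.sum_congr rfl fun σ _ => ?_
    rw [← Finset.mul_sum, ← Finset.sum_mul, Finset.sum_sub_distrib, ← Nat.cast_sum, ← Nat.cast_sum,
      hβ, show ∑ i, (σ i : ℕ) = d0 N from sum_pv σ]
    push_cast
    ring

theorem dF_mul_prod (β : Fin N → ℕ) : dF β * ∏ i, ((β i).factorial : ℂ) =
    ∏ i, ∏ j ∈ Ioi i, (((β j : ℕ) : ℂ) - β i) := by
  rw [← Matrix.det_vandermonde, Matrix.det_eval_matrixOfPolynomials_eq_det_vandermonde _
    (fun i => descPochhammer ℂ i) (fun i => descPochhammer_natDegree ℂ i)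
    (fun i => monic_descPochhammer ℂ i), ← Matrix.det_transpose, Matrix.det_apply', dF,
    Finset.sum_mul]
  refine Finset.sum_congr rfl fun σ _ => ?_
  rw [mul_assoc, ← Finset.prod_mul_distrib]
  congr 1
  refine Finset.prod_congr rfl fun i _ => ?_
  rw [rf_mul_factorial, Matrix.transpose_apply, Matrix.of_apply,
    descPochhammer_eval_eq_descFactorial]

/-- The product of the hook lengths. -/
def hookProd (S : Finset ℕ) : ℕ := ∏ x ∈ S, ∏ y ∈ range x with y ∉ S, (x - y)

theorem factorial_eq_mul (S : Finset ℕ) (x : ℕ) : x.factorial =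
    (∏ y ∈ S with y < x, (x - y)) * ∏ y ∈ range x with y ∉ S, (x - y) := by
  have h1 : x.factorial = ∏ y ∈ range x, (x - y) := by
    rw [← Finset.prod_range_add_one_eq_factorial, ← Finset.prod_range_reflect]
    refine Finset.prod_congr rfl fun y hy => ?_
    have := mem_range.1 hy
    omega
  rw [h1, ← Finset.prod_filter_mul_prod_filter_not (range x) (fun y => y ∈ S)]
  congr 2
  ext y
  simp [and_comm]

/-- The hook formula. -/
theorem Y_mul_hookProd {n : ℕ} {S : Finset ℕ} (hS : S ∈ SS N (d0 N + n)) :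
    Y N (Multiset.replicate n 1) S * (hookProd S : ℂ) = n.factorial := by
  obtain ⟨h1, h2⟩ := mem_SS.1 hS
  have h3 := dF_mul_prod (en N S)
  have h4 : ∏ i, ((en N S i).factorial : ℂ) =
      (∏ i, ∏ j ∈ Ioi i, (((en N S j : ℕ) : ℂ) - en N S i)) * hookProd S := by
    have h5 : ∏ i, ((en N S i).factorial : ℂ) = ∏ x ∈ S, (x.factorial : ℂ) := by
      conv_rhs => rw [← image_en h1]
      rw [Finset.prod_image (fun x _ y _ hxy => (en_strictMono h1).injective hxy)]
    rw [h5, hookProd]
    simp only [factorial_eq_mul S, Nat.cast_mul]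
    rw [Finset.prod_mul_distrib, Nat.cast_prod]
    congr 1
    rw [Finset.prod_comm' (t' := univ) (s' := fun j => Iio j) (by simp)]
    conv_lhs => rw [← image_en h1]
    rw [Finset.prod_image (fun x _ y _ hxy => (en_strictMono h1).injective hxy)]
    refine Finset.prod_congr rfl fun j _ => ?_
    rw [Nat.cast_prod, Finset.filter_image,
      Finset.prod_image (fun x _ y _ hxy => (en_strictMono h1).injective hxy)]
    refine Finset.prod_congr ?_ fun i hi => ?_
    · ext i
      simp [(en_strictMono h1).lt_iff_lt]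
    · rw [Nat.cast_sub (en_strictMono h1 (mem_Iio.1 hi)).le]
  have h6 : ∏ i, ∏ j ∈ Ioi i, (((en N S j : ℕ) : ℂ) - en N S i) ≠ 0 :=
    Finset.prod_ne_zero_iff.2 fun i _ => Finset.prod_ne_zero_iff.2 fun j hj => sub_ne_zero.2 (by
      have := en_strictMono h1 (mem_Ioi.1 hj)
      exact_mod_cast this.ne')
  rw [h4, mul_left_comm] at h3
  have h7 := mul_left_cancel₀ h6 (h3.trans (mul_one _).symm)
  rw [Y, X_replicate_one n _ (by rw [sum_en h1 fun x => x, h2]), mul_assoc, h7, mul_one]

theorem pow_wt_dvd_hookProd (p : ℕ) (S : Finset ℕ) : p ^ wt p S ∣ hookProd S := by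
  rw [wt, ← Finset.prod_pow_eq_pow_sum, hookProd]
  refine Finset.prod_dvd_prod_of_dvd _ _ fun x _ => ?_
  rw [ht, ← Finset.prod_const]
  refine dvd_trans (Finset.prod_dvd_prod_of_dvd _ (fun y => x - y) fun y hy => ?_)
    (Finset.prod_dvd_prod_of_subset _ _ _ fun y hy => ?_)
  · simp only [mem_filter, mem_range] at hy
    exact (Nat.modEq_iff_dvd' hy.1.le).1 hy.2.1
  · simp only [mem_filter] at hy ⊢
    exact ⟨hy.1, hy.2.2⟩

theorem sum_add_wt_of_res {p : ℕ} (hp : 0 < p) {S T : Finset ℕ} (h : res p S = res p T) :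
    ∑ x ∈ S, x + p * wt p T = ∑ x ∈ T, x + p * wt p S := by
  have h1 := sum_eq_wt hp S
  have h2 := sum_eq_wt hp T
  have h3 := two_mul_sum_rk p S
  have h4 := two_mul_sum_rk p T
  have h5 : S.card = T.card := by simpa [res] using congrArg Multiset.card h
  have h6 : ∑ x ∈ S, x % p = ∑ x ∈ T, x % p := congrArg Multiset.sum h
  rw [h] at h3
  have h7 : ∑ x ∈ S, rk p S x = ∑ x ∈ T, rk p T x := by omega
  rw [Finset.sum_add_distrib, ← Finset.mul_sum] at h1 h2
  rw [h7, h6] at h1
  omega

/-- The parts divisible by `p` of a class where the character does not vanish. -/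
theorem sum_le_wt_of_Y_ne_zero {p : ℕ} (hp : 0 < p) (ν : Multiset ℕ) (μ : Multiset ℕ) :
    ∀ {S : Finset ℕ}, S.card = N → (∀ r ∈ μ, 0 < r ∧ p ∣ r) → Y N (μ + ν) S ≠ 0 →
      μ.sum ≤ p * wt p S := by
  induction μ using Multiset.induction_on with
  | empty => intro S _ _ _; simp
  | cons r μ ih =>
    intro S hS hμ h
    obtain ⟨hr, hpr⟩ := hμ r (Multiset.mem_cons_self _ _)
    rw [Multiset.cons_add, Y_cons hr _ hS] at h
    obtain ⟨x, hx, h1⟩ := Finset.exists_ne_zero_of_sum_ne_zero h
    simp only [mem_filter] at hx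
    have h2 : x - r ∉ S.erase x := fun h => hx.2.2 (mem_of_mem_erase h)
    have h3 : (insert (x - r) (S.erase x)).card = N := by
      rw [card_insert_of_notMem h2, card_erase_add_one hx.1, hS]
    have h4 := ih h3 (fun s hs => hμ s (Multiset.mem_cons_of_mem hs)) (right_ne_zero_of_mul h1)
    have h5 : (x - r) % p = x % p := (Nat.modEq_iff_dvd' (Nat.sub_le x r)).2 (by
      rw [show x - (x - r) = r by omega]; exact hpr)
    have h6 : res p S = res p (insert (x - r) (S.erase x)) := by
      conv_lhs => rw [← Finset.insert_erase hx.1]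
      rw [res, res, Finset.insert_val_of_notMem h2,
        Finset.insert_val_of_notMem (notMem_erase x S), Multiset.map_cons, Multiset.map_cons, h5]
    have h7 := sum_add_wt_of_res hp h6
    rw [Finset.sum_insert h2, ← Finset.add_sum_erase S _ hx.1] at h7
    rw [Multiset.sum_cons]
    omega

variable {α : Type*} [Fintype α] [DecidableEq α]

/-- The number of points in cycles of length divisible by `p`. -/
def divLen (p : ℕ) (g : Equiv.Perm α) : ℕ := (g.cycleType.filter (p ∣ ·)).sum

/-- The weight of an irreducible character of the symmetric group. -/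
theorem exists_wt_perm {p : ℕ} (hp : 0 < p) (φ : IrrCharacter (Equiv.Perm α)) :
    ∃ W : ℕ, p ^ W * charDegree φ.1 ∣ (Fintype.card α).factorial ∧
      ∀ g, φ.1 g ≠ 0 → divLen p g ≤ p * W := by
  have hN : Fintype.card α ≤ Fintype.card α := le_rfl
  obtain ⟨ε, hε, h⟩ := exists_irr_eq hN φ
  have hS := lab_mem hN φ
  refine ⟨wt p (lab hN φ), ?_, fun g hg => ?_⟩
  · have h1 := Y_mul_hookProd hS
    have h2 : φ.1 1 = ε * Y (Fintype.card α) (Multiset.replicate (Fintype.card α) 1) (lab hN φ) := by
      rw [h, Pi.smul_apply, chi, smul_eq_mul, Equiv.Perm.parts_partition]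
      simp
    have h3 : (charDegree φ.1 : ℂ) * hookProd (lab hN φ) = ε * (Fintype.card α).factorial := by
      rw [← irr_apply_one, h2, mul_assoc, h1]
    have h4 : (charDegree φ.1 * hookProd (lab hN φ)) ^ 2 = (Fintype.card α).factorial ^ 2 := by
      have : ((charDegree φ.1 : ℂ) * hookProd (lab hN φ)) ^ 2 =
          ((Fintype.card α).factorial : ℂ) ^ 2 := by
        rw [h3, mul_pow, sq ε, hε, one_mul]
      exact_mod_cast this
    rw [← (Nat.pow_left_injective two_ne_zero h4 :), mul_comm]
    exact Nat.mul_dvd_mul_left _ (pow_wt_dvd_hookProd _ _)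
  · rw [h, Pi.smul_apply, chi, smul_eq_mul, Equiv.Perm.parts_partition,
      ← Multiset.filter_add_not (p ∣ ·) g.cycleType, add_assoc] at hg
    refine sum_le_wt_of_Y_ne_zero hp _ _ (mem_SS.1 hS).1 (fun r hr => ?_) (right_ne_zero_of_mul hg)
    rw [Multiset.mem_filter] at hr
    exact ⟨lt_of_lt_of_le two_pos (Equiv.Perm.two_le_of_mem_cycleType hr.1), hr.2⟩

theorem card_support_le_divLen {p : ℕ} (hp : p.Prime) {u y : Equiv.Perm α} (h : Commute u y)
    {k : ℕ} (hu : u ^ p ^ k = 1) {m : ℕ} (hm : ¬ p ∣ m) (hy : y ^ m = 1) :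
    u.support.card ≤ divLen p (u * y) := by
  have h1 : (u * y) ^ m = u ^ m := by rw [h.mul_pow, hy, mul_one]
  have h2 : (u ^ m).support = u.support := Equiv.Perm.support_pow_coprime
    (Nat.Coprime.coprime_dvd_right (orderOf_dvd_of_pow_eq_one hu)
      (Nat.Coprime.pow_right _ ((Nat.Prime.coprime_iff_not_dvd hp).2 hm).symm))
  have h3 : (u * y) ^ (p ^ k * m) = 1 := by
    rw [mul_comm (p ^ k), pow_mul, h1, ← pow_mul, mul_comm, pow_mul, hu, one_pow]
  generalize u * y = g at h1 h3
  have h4 : divLen p g = ∑ c ∈ g.cycleFactorsFinset with p ∣ c.support.card, c.support.card := by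
    rw [divLen, Equiv.Perm.cycleType_def, Multiset.filter_map]
    rfl
  rw [h4, ← h2, ← h1]
  refine le_trans (Finset.card_le_card fun a ha => ?_) Finset.card_biUnion_le
  have h5 : a ∈ g.support := Equiv.Perm.support_pow_le g m ha
  have h6 := Equiv.Perm.cycleOf_mem_cycleFactorsFinset_iff.2 h5
  refine mem_biUnion.2 ⟨g.cycleOf a, mem_filter.2 ⟨h6, ?_⟩,
    Equiv.Perm.mem_support_cycleOf_iff.2 ⟨Equiv.Perm.SameCycle.refl _ _, h5⟩⟩
  by_contra h7
  have h8 : (g.cycleOf a).IsCycle := (Equiv.Perm.mem_cycleFactorsFinset_iff.1 h6).1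
  rw [← h8.orderOf] at h7
  have h9 : orderOf (g.cycleOf a) ∣ p ^ k * m :=
    (Equiv.Perm.orderOf_cycleOf_dvd_orderOf g a).trans (orderOf_dvd_of_pow_eq_one h3)
  have h10 : orderOf (g.cycleOf a) ∣ m := Nat.Coprime.dvd_of_dvd_mul_left
    (Nat.Coprime.pow_right _ ((Nat.Prime.coprime_iff_not_dvd hp).2 h7).symm) h9
  apply Equiv.Perm.mem_support.1 ha
  rw [← Equiv.Perm.cycleOf_pow_apply_self, orderOf_dvd_iff_pow_eq_one.1 h10]
  rfl

/-- The two conjugates of a character of a subgroup of index two. -/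
theorem _root_.CT.exists_add_smul_eq_of_index_two {G : Type*} [Group G] [Finite G]
    {K : Subgroup G} [K.Normal] (hK : K.index = 2) {t : G} (ht : t ∉ K) {χ : IrrCharacter G}
    {θ : IrrCharacter K} (h : LiesOver K χ.1 θ.1) :
    ∃ c : ℂ, ∀ n : K, θ.1 n + (t • θ).1 n = c * χ.1 n := by
  classical
  have h1 := clifford h
  have h2 : (mult (CT.res K χ.1) θ.1 : ℂ) ≠ 0 := by
    exact_mod_cast ((liesOver_iff_mult_pos (irr_isCharacter χ) (irr_isCharacter θ)).1 h).ne'
  have h3 : conjOrbit G θ = {θ, t • θ} := by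
    ext φ
    rw [mem_conjOrbit, Finset.mem_insert, Finset.mem_singleton]
    constructor
    · rintro ⟨g, rfl⟩
      by_cases hg : g ∈ K
      · exact Or.inl (conjSmul_of_mem hg θ)
      · right
        have : t⁻¹ * g ∈ K := by
          rw [Subgroup.mul_mem_iff_of_index_two hK, inv_mem_iff]; tauto
        show g • θ = t • θ
        rw [← mul_inv_cancel_left t g, mul_smul, conjSmul_of_mem this]
    · rintro (rfl | rfl)
      · exact MulAction.mem_orbit_self _
      · exact MulAction.mem_orbit _ _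
  rw [h3] at h1
  by_cases h4 : θ = t • θ
  · refine ⟨2 * (mult (CT.res K χ.1) θ.1 : ℂ)⁻¹, fun n => ?_⟩
    rw [← h4, Finset.pair_eq_singleton, Finset.sum_singleton] at h1
    have : χ.1 n = mult (CT.res K χ.1) θ.1 * θ.1 n := congrFun h1 n
    rw [← h4, this]
    field_simp
    ring
  · refine ⟨(mult (CT.res K χ.1) θ.1 : ℂ)⁻¹, fun n => ?_⟩
    rw [Finset.sum_pair h4] at h1
    have : χ.1 n = mult (CT.res K χ.1) θ.1 * (θ.1 n + (t • θ).1 n) := congrFun h1 n
    rw [this]
    field_simp

/-- The weight of an irreducible character of the alternating group. -/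
theorem exists_wt_alt [Nontrivial α] {p : ℕ} (hp : 0 < p) (ψ : IrrCharacter (alternatingGroup α))
    {t : Equiv.Perm α} (ht : t ∉ alternatingGroup α) :
    ∃ W : ℕ, p ^ W * charDegree ψ.1 ∣ (Fintype.card α).factorial ∧
      ∀ g, ψ.1 g + (t • ψ).1 g ≠ 0 → divLen p (g : Equiv.Perm α) ≤ p * W := by
  obtain ⟨φ, hφ⟩ := exists_irr_liesOver ψ
  obtain ⟨W, h1, h2⟩ := exists_wt_perm hp φ
  obtain ⟨c, hc⟩ := exists_add_smul_eq_of_index_two alternatingGroup.index_eq_two ht hφ
  refine ⟨W, (Nat.mul_dvd_mul_left _ hφ.degree_dvd).trans h1, fun g hg => h2 _ ?_⟩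
  rw [hc] at hg
  exact right_ne_zero_of_mul hg

end SFock
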