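import Mathlib

/-!
# Anticommuting operators on functions of finite sets

Jordan–Wigner operators: a representation of the Clifford relations on functions of finite subsets
of a linearly ordered set.
-/

set_option autoImplicit false

namespace SQ

open Finset

variable {ι : Type*} [LinearOrder ι]

/-- Functions of finite sets. -/
@[implicit_reducible] def Fs (ι : Type*) := Finset ι → ℂ

noncomputable instance instAddCommGroupFs (ι : Type*) : AddCommGroup (Fs ι) := Pi.addCommGroup

noncomputable instance instModuleFs (ι : Type*) : Module ℂ (Fs ι) := Pi.Function.module _ _ _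

instance instFiniteFs (ι : Type*) [Fintype ι] : Module.Finite ℂ (Fs ι) :=
  inferInstanceAs (Module.Finite ℂ (Finset ι → ℂ))

section
variable {κ : Type*} (F G : Fs κ) (T : Finset κ)

@[ext] theorem Fs.ext {F G : Fs κ} (h : ∀ T, F T = G T) : F = G := funext h
@[simp] theorem Fs.add_apply : (F + G) T = F T + G T := rfl
@[simp] theorem Fs.sub_apply : (F - G) T = F T - G T := rfl
@[simp] theorem Fs.neg_apply : (-F) T = -F T := rfl
@[simp] theorem Fs.zero_apply : (0 : Fs κ) T = 0 := rfl
@[simp] theorem Fs.smul_apply (c : ℂ) : (c • F) T = c * F T := rfl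
theorem Fs.sum_apply {σ : Type*} (s : Finset σ) (f : σ → Fs κ) :
    (∑ i ∈ s, f i) T = ∑ i ∈ s, f i T := Finset.sum_apply T s f

end

/-- The indicator function of a set. -/
noncomputable def dl (S : Finset ι) : Fs ι := fun T => if T = S then 1 else 0

theorem dl_apply (S T : Finset ι) : dl S T = if T = S then 1 else 0 := rfl

theorem eq_sum_dl {F : Fs ι} {s : Finset (Finset ι)} (h : ∀ T, F T ≠ 0 → T ∈ s) :
    F = ∑ S ∈ s, F S • dl S := by
  ext T
  simp only [Fs.sum_apply, Fs.smul_apply, dl_apply, mul_ite, mul_one, mul_zero]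
  rw [Finset.sum_ite_eq]
  split_ifs with h1
  exacts [rfl, not_not.1 (mt (h T) h1)]

/-- Operators on functions of finite sets. -/
abbrev Op (ι : Type*) := Module.End ℂ (Fs ι)

/-- Toggle the membership of `a`. -/
def tg (a : ι) (T : Finset ι) : Finset ι := if a ∈ T then T.erase a else insert a T

theorem mem_tg {a b : ι} {T : Finset ι} : b ∈ tg a T ↔ if b = a then a ∉ T else b ∈ T := by
  unfold tg; split_ifs <;> simp_all

theorem tg_tg (a : ι) (T : Finset ι) : tg a (tg a T) = T := by
  ext b; simp only [mem_tg]; split_ifs <;> simp_all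

theorem tg_comm (a b : ι) (T : Finset ι) : tg a (tg b T) = tg b (tg a T) := by
  ext c; simp only [mem_tg]; grind

theorem prod_tg {s : ι → ℂ} {a : ι} (h : s a * s a = 1) (T : Finset ι) :
    ∏ b ∈ tg a T, s b = s a * ∏ b ∈ T, s b := by
  unfold tg; split_ifs with h1
  · rw [← mul_prod_erase T s h1, ← mul_assoc, h, one_mul]
  · rw [prod_insert h1]

/-- Multiplication by a product over the set. -/
noncomputable def kk (s : ι → ℂ) : Op ι where
  toFun F T := (∏ b ∈ T, s b) * F T
  map_add' _ _ := funext fun _ => mul_add _ _ _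
  map_smul' _ _ := funext fun _ => mul_left_comm _ _ _

/-- The toggling operator. -/
def tt (a : ι) : Op ι where
  toFun F T := F (tg a T)
  map_add' _ _ := rfl
  map_smul' _ _ := rfl

omit [LinearOrder ι] in
theorem kk_apply (s : ι → ℂ) (F : Fs ι) (T : Finset ι) : kk s F T = (∏ b ∈ T, s b) * F T := rfl

theorem tt_apply (a : ι) (F : Fs ι) (T : Finset ι) : tt a F T = F (tg a T) := rfl

/-- The sign of `a` against the elements above it. -/
def up (a b : ι) : ℂ := if a < b then -1 else 1

/-- The sign that detects `a`. -/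
def at' (a b : ι) : ℂ := if b = a then -1 else 1

theorem up_mul_self (a b : ι) : up a b * up a b = 1 := by unfold up; split_ifs <;> simp

theorem up_self (a : ι) : up a a = 1 := if_neg (lt_irrefl a)

theorem at_mul_self (a b : ι) : at' a b * at' a b = 1 := by unfold at'; split_ifs <;> simp

/-- The Clifford generators. -/
noncomputable def cc (a : ι) : Op ι := kk (up a) * tt a

/-- The sign of the membership of `a`. -/
noncomputable def pp (a : ι) : Op ι := kk (at' a)

variable (ι) in
/-- The parity operator. -/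
noncomputable def om : Op ι := kk fun _ => -1

theorem cc_apply (a : ι) (F : Fs ι) (T : Finset ι) :
    cc a F T = (∏ b ∈ T, up a b) * F (tg a T) := rfl

theorem pp_apply (a : ι) (F : Fs ι) (T : Finset ι) :
    pp a F T = (if a ∈ T then -1 else 1) * F T := by
  simp [pp, kk_apply, at']

omit [LinearOrder ι] in
theorem om_apply (F : Fs ι) (T : Finset ι) : om ι F T = (-1) ^ T.card * F T := by
  simp [om, kk_apply]

omit [LinearOrder ι] in
theorem kk_mul_self {s : ι → ℂ} (h : ∀ b, s b * s b = 1) : kk s * kk s = 1 := by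
  ext F T
  simp [kk_apply, ← mul_assoc, ← prod_mul_distrib, h]

omit [LinearOrder ι] in
theorem kk_comm (s t : ι → ℂ) : kk s * kk t = kk t * kk s := by
  ext F T
  simp [kk_apply, mul_left_comm]

theorem cc_mul_kk {s : ι → ℂ} {a : ι} (h : s a * s a = 1) : cc a * kk s = s a • (kk s * cc a) := by
  ext F T
  simp only [Module.End.mul_apply, cc_apply, kk_apply, prod_tg h,
    LinearMap.smul_apply, Fs.smul_apply]
  ring

theorem cc_mul_self (a : ι) : cc a * cc a = 1 := by
  ext F T
  simp only [Module.End.mul_apply, cc_apply, prod_tg (up_mul_self _ _), tg_tg]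
  simp [up, ← mul_assoc, ← prod_mul_distrib, show ∀ b, (if a < b then (-1 : ℂ) else 1) *
    (if a < b then -1 else 1) = 1 from up_mul_self a]

theorem cc_anti {a b : ι} (h : a ≠ b) : cc a * cc b = -(cc b * cc a) := by
  ext F T
  simp only [Module.End.mul_apply, cc_apply, prod_tg (up_mul_self _ _),
    tg_comm a b, LinearMap.neg_apply, Fs.neg_apply]
  rcases h.lt_or_gt with h | h <;> simp [up, h, h.not_gt] <;> ring

theorem pp_mul_self (a : ι) : pp a * pp a = 1 := kk_mul_self (at_mul_self a)

omit [LinearOrder ι] in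
theorem om_mul_self : om ι * om ι = 1 := kk_mul_self (by simp)

theorem cc_pp (a : ι) : cc a * pp a = -(pp a * cc a) := by
  rw [pp, cc_mul_kk (at_mul_self a a), at', if_pos rfl, neg_one_smul]

theorem cc_pp_of_ne {a b : ι} (h : a ≠ b) : cc a * pp b = pp b * cc a := by
  simp [pp, cc_mul_kk (at_mul_self b a), at', h]

theorem cc_om (a : ι) : cc a * om ι = -(om ι * cc a) := by
  rw [om, cc_mul_kk (by simp), neg_one_smul]

theorem pp_dl (a : ι) (S : Finset ι) : pp a (dl S) = (if a ∈ S then (-1 : ℂ) else 1) • dl S := by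
  ext U
  by_cases hU : U = S <;> simp [pp_apply, dl_apply, hU]

theorem cc_dl (a : ι) (S : Finset ι) : cc a (dl S) = (∏ b ∈ S, up a b) • dl (tg a S) := by
  ext U
  by_cases hU : U = tg a S
  · simp [cc_apply, dl_apply, hU, tg_tg, prod_tg (up_mul_self a a), up_self]
  · have : tg a U ≠ S := fun e => hU (by rw [← e, tg_tg])
    simp [cc_apply, dl_apply, hU, this]

/-- An operator that commutes with all `cc a` and `pp a` is a scalar. -/
theorem exists_eq_smul_one {B : Op ι} (h1 : ∀ a, B * cc a = cc a * B) (h2 : ∀ a, B * pp a = pp a * B)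
    [Fintype ι] : ∃ κ : ℂ, B = κ • 1 := by
  have h3 : ∀ S T, T ≠ S → B (dl S) T = 0 := fun S T h => by
    obtain ⟨a, ha⟩ := not_forall.1 (mt Finset.ext h)
    have h5 := congrFun (LinearMap.congr_fun (h2 a) (dl S)) T
    simp only [Module.End.mul_apply, pp_dl, map_smul, pp_apply, Fs.smul_apply] at h5
    split_ifs at h5 with h6 h7 h7
    · simp_all
    · linear_combination h5 / -2
    · linear_combination h5 / 2
    · simp_all
  have h4 : ∀ a S, B (dl (tg a S)) (tg a S) = B (dl S) S := fun a S => by
    have h5 := congrFun (LinearMap.congr_fun (h1 a) (dl S)) (tg a S)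
    simp only [Module.End.mul_apply, cc_dl, map_smul, cc_apply, Fs.smul_apply, tg_tg,
      prod_tg (up_mul_self a a), up_self, one_mul] at h5
    exact mul_left_cancel₀ (prod_ne_zero_iff.2 fun b _ => left_ne_zero_of_mul_eq_one
      (up_mul_self a b)) h5
  have h5 : ∀ S, B (dl S) S = B (dl ∅) ∅ := fun S => by
    induction S using Finset.induction_on with
    | empty => rfl
    | insert a S ha ih => rw [← ih, ← h4 a S, tg, if_neg ha]
  refine ⟨B (dl ∅) ∅, LinearMap.ext fun F => ?_⟩
  rw [eq_sum_dl (F := F) (s := univ) fun _ _ => mem_univ _, map_sum, map_sum]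
  refine sum_congr rfl fun S _ => ?_
  rw [map_smul, map_smul]
  congr 1
  ext T
  by_cases h : T = S
  · simp [h, h5, dl_apply]
  · simp [h3 S T h, h, dl_apply]

omit [LinearOrder ι] in
theorem trace_one_op [Fintype ι] : LinearMap.trace ℂ _ (1 : Op ι) = 2 ^ Fintype.card ι := by
  rw [LinearMap.trace_one, show Module.finrank ℂ (Fs ι) = Module.finrank ℂ (Finset ι → ℂ) from rfl]
  simp

end SQ
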