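import Cfsg.Agent.Lib.Sym.QFock
import Cfsg.Agent.Lib.Sym.Abacus

/-!
# Degrees and weights

The degree formulas for the characters of the symmetric groups and for the spin characters, their
`p`-parts, and the bound of the `p`-singular part of a class by the weight.
-/

set_option autoImplicit false

namespace SQ

open Finset SFock

theorem pr_mul_ph_eq_zero {l : ℕ} {β : Fin l → ℤ} (h : ∀ i, 0 ≤ β i) {i : Fin l} (hi : 0 < β i) :
    pr l β * ph (β i) = 0 := by
  induction l with
  | zero => exact i.elim0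
  | succ l ih =>
    have h1 := ph_anti (a := β 0) (b := β i) (by have := h 0; omega)
    rw [pr_succ, mul_assoc]
    cases i using Fin.cases with
    | zero =>
      rw [eq_neg_iff_add_eq_zero, ← two_smul ℂ, smul_eq_zero] at h1
      rw [h1.resolve_left two_ne_zero, mul_zero]
    | succ i => rw [h1, mul_neg, ← mul_assoc, show β i.succ = Fin.tail β i from rfl,
        ih (β := Fin.tail β) (fun _ => h _) hi, zero_mul, neg_zero]

theorem pr_eq_zero {l : ℕ} {β : Fin l → ℤ} (h : ∀ i, 0 ≤ β i) {i j : Fin l} (hij : i < j)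
    (hj : 0 < β j) (e : β i = β j) : pr l β = 0 := by
  induction l with
  | zero => exact i.elim0
  | succ l ih =>
    rw [pr_succ]
    cases j using Fin.cases with
    | zero => exact absurd hij (Fin.not_lt_zero _)
    | succ j =>
      cases i using Fin.cases with
      | zero => exact e ▸ pr_mul_ph_eq_zero (β := Fin.tail β) (fun _ => h _) hj
      | succ i => rw [ih (β := Fin.tail β) (fun _ => h _) (Fin.succ_lt_succ_iff.1 hij) hj e, zero_mul]

/-- The number of shifted standard tableaux. -/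
noncomputable def gq (n : ℕ) {l : ℕ} (β : Fin l → ℕ) : ℂ :=
  Ph (fun i => (β i : ℤ)) (PP l (Multiset.replicate n 1))

theorem gq_eq (n : ℕ) {l : ℕ} (β : Fin l → ℕ) {M : ℕ} (h1 : n ≤ M) (h2 : ∀ i, β i ≤ M) :
    gq n β = bf M (uu M (List.replicate n 1)) (pr l (fun i => β i) vac) := by
  rw [bf_uu_pr (by simp) fun i => by have := h2 i; simp; omega, gq, Multiset.coe_replicate]

/-- Schur's formula. -/
noncomputable def gf {l : ℕ} (β : Fin l → ℕ) : ℂ :=
  (∑ i, β i).factorial / (∏ i, ((β i).factorial : ℂ)) *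
    ∏ i, ∏ j ∈ Ioi i, (((β j : ℂ) - β i) / (β j + β i))

theorem lagrange_aux {l : ℕ} {β : Fin l → ℕ} (h : Function.Injective β) (h0 : ∀ i, 0 < β i) :
    ∑ i, (β i : ℂ) * ∏ j ∈ ({i}ᶜ : Finset _), ((β i - 1 - β j) * (β i + β j) /
      ((β i - β j) * (β i - 1 + β j)) : ℂ) = ∑ i, (β i : ℂ) := by
  rcases l.eq_zero_or_pos with rfl | hl
  · simp
  have h1 := Lagrange.coeff_eq_sum (s := univ) (v := fun i => (β i : ℂ) * (β i - 1))
    (P := ∏ j, (Polynomial.X - Polynomial.C ((β j : ℂ) * (β j + 1))) -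
      ∏ j, (Polynomial.X - Polynomial.C ((β j : ℂ) * (β j - 1)))) (fun i _ j _ e => h (by
      have h1 : ((β i : ℂ) - β j) * ((β i + β j - 1 : ℕ) : ℂ) = 0 := by
        rw [Nat.cast_sub (by have := h0 i; omega)]; push_cast; linear_combination e
      have := h0 i
      have := h0 j
      simpa [sub_eq_zero, show β i + β j - 1 ≠ 0 by omega] using h1)) (by
      refine (Polynomial.degree_sub_lt_left ?_ (Polynomial.monic_prod_X_sub_C _ _).ne_zero ?_).trans_eq ?_
      · simp only [Polynomial.degree_prod, Polynomial.degree_X_sub_C]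
      · simp only [(Polynomial.monic_prod_X_sub_C _ _).leadingCoeff]
      · simp only [Polynomial.degree_prod, Polynomial.degree_X_sub_C, sum_const, nsmul_eq_mul, mul_one])
  rw [Polynomial.coeff_sub, Polynomial.prod_X_sub_C_coeff_card_pred _ _ (by simpa),
    Polynomial.prod_X_sub_C_coeff_card_pred _ _ (by simpa), neg_sub_neg, ← sum_sub_distrib] at h1
  apply mul_left_cancel₀ (show (-2 : ℂ) ≠ 0 by simp)
  rw [mul_sum, mul_sum, sum_congr rfl fun i _ => show -2 * (β i : ℂ) =
    β i * (β i - 1) - β i * (β i + 1) by ring, h1]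
  refine sum_congr rfl fun i _ => ?_
  simp only [Polynomial.eval_sub, Polynomial.eval_prod, Polynomial.eval_X, Polynomial.eval_C]
  rw [prod_eq_zero (f := fun j => (β i : ℂ) * (β i - 1) - β j * (β j - 1)) (mem_univ i) (sub_self _),
    sub_zero, ← mul_prod_erase _ _ (mem_univ i),
    compl_singleton, mul_div_assoc, ← prod_div_distrib, ← mul_assoc]
  congr 1
  · ring
  · exact prod_congr rfl fun j _ => by congr 1 <;> ring

theorem gf_sub {l : ℕ} {β : Fin l → ℕ} (h : Function.Injective β) (h0 : ∀ i, 0 < β i) (i : Fin l) :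
    (∑ j, (β j : ℂ)) * gf (β - Pi.single i 1) = gf β * (β i * ∏ j ∈ ({i}ᶜ : Finset _),
      ((β i - 1 - β j) * (β i + β j) / ((β i - β j) * (β i - 1 + β j)) : ℂ)) := by
  set r : Fin l → ℂ := fun j => (β i - 1 - β j) * (β i + β j) / ((β i - β j) * (β i - 1 + β j))
  have h1 : ∀ j, ((β - Pi.single i 1 : Fin l → ℕ) j : ℂ) = if j = i then (β i : ℂ) - 1 else β j :=
    fun j => by
    by_cases hj : j = i
    · simp [hj, Nat.cast_sub (h0 i)]
    · simp [hj]
  have h2 : ∀ j k, (β j : ℂ) + β k ≠ 0 := fun j k => by have := h0 j; norm_cast; omega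
  have h3 : ∀ j k, j ≠ k → (β j : ℂ) - β k ≠ 0 := fun j k e => by simpa [sub_eq_zero] using h.ne e
  have h4 : ∀ j, (β i : ℂ) - 1 + β j ≠ 0 := fun j => by
    have := h0 i; have := h0 j
    rw [← Nat.cast_pred (h0 i)]; norm_cast; omega
  have h5 := prod_prod_Ioi_mul_eq_prod_prod_off_diag fun j k => if k = i then r j else 1
  replace h5 := h5.trans (prod_eq_single i (fun b _ hb => by simp [hb]) (by simp))
  simp only [if_true] at h5
  have h6 : ∏ j, ((β j).factorial : ℂ) =
      β i * ∏ j, (((β - Pi.single i 1 : Fin l → ℕ) j).factorial : ℂ) := by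
    rw [← mul_prod_erase _ _ (mem_univ i), ← mul_prod_erase _ _ (mem_univ i), ← mul_assoc,
      ← Nat.mul_factorial_pred (h0 i).ne']
    congr 1
    · simp
    · exact prod_congr rfl fun j hj => by simp [ne_of_mem_erase hj]
  have h7 : ((∑ j, β j).factorial : ℂ) =
      (∑ j, (β j : ℂ)) * (∑ j, (β - Pi.single i 1 : Fin l → ℕ) j).factorial := by
    rw [← Nat.cast_sum, ← sum_sub_single (h0 i), Nat.factorial_succ, Nat.cast_mul]
  have h8 : (β i : ℂ) ≠ 0 := by exact_mod_cast (h0 i).ne'
  rw [gf, gf, ← h5, h6, h7, prod_congr rfl fun j _ => prod_congr rfl (g := fun k =>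
    ((β k : ℂ) - β j) / (β k + β j) * ((if j = i then r k else 1) * if k = i then r j else 1))
    fun k hk => ?_]
  · simp only [prod_mul_distrib]
    field_simp
  · have h9 := (mem_Ioi.1 hk).ne
    simp only [h1, r]
    split_ifs with a b b
    · exact absurd (b.trans a.symm) h9
    · have := h3 _ _ h9; have := h2 j i; have := h2 i j; have := h4 j; have := h3 _ _ (Ne.symm b)
      subst a
      field_simp
    · have := h2 k i; have := h2 i k; have := h4 k; have := h3 _ _ (Ne.symm a)
      subst b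
      rw [add_comm (β k : ℂ)]
      field_simp
      ring
    · simp

theorem gq_eq_gf (n : ℕ) {l : ℕ} {β : Fin l → ℕ} (h : StrictMono β) (hn : ∑ i, β i = n) :
    gq n β = gf β := by
  have hle : ∀ {l : ℕ} (β : Fin l → ℕ) i, β i ≤ ∑ j, β j := fun β i =>
    single_le_sum (fun _ _ => Nat.zero_le _) (mem_univ i)
  have red : ∀ n, (∀ l (β : Fin l → ℕ), StrictMono β → (∀ i, 0 < β i) → ∑ i, β i = n →
      gq n β = gf β) → ∀ l (β : Fin l → ℕ), StrictMono β → ∑ i, β i = n → gq n β = gf β := by
    intro n ih l β h hn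
    cases l with
    | zero => exact ih _ β h (fun i => i.elim0) hn
    | succ l =>
      have h1 : ∀ i : Fin l, 0 < β i.succ := fun i => (Nat.zero_le _).trans_lt (h i.succ_pos)
      by_cases h0 : β 0 = 0
      · rw [Fin.sum_univ_succ, h0, zero_add] at hn
        have := ih _ (Fin.tail β) (h.comp Fin.strictMono_succ) h1 hn
        rw [gq_eq n _ le_rfl fun i => hn ▸ hle (Fin.tail β) i] at this
        rw [gq_eq n _ le_rfl (Fin.cases (by omega) fun i => hn ▸ hle (Fin.tail β) i), pr_succ,
          Module.End.mul_apply, h0, Nat.cast_zero, ph_zero_vac]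
        refine this.trans ?_
        simp only [gf, Fin.sum_univ_succ, Fin.prod_univ_succ, h0, Fin.prod_Ioi_zero, Fin.prod_Ioi_succ,
          Fin.tail]
        simp [(h1 _).ne']
      · exact ih _ β h (Fin.cases (by omega) h1) hn
  induction n generalizing l with
  | zero =>
    refine red 0 (fun l β _ h0 hn => ?_) _ β h hn
    cases l with
    | zero => simpa [gq, gf, PP, cv, pr, vac, dl_apply] using Ph_monomial (fun i => (β i : ℤ)) 0
    | succ l => exact absurd ((hle β 0).trans hn.le) (h0 0).not_ge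
  | succ n ih =>
    refine red (n + 1) (fun l β h h0 hn => ?_) _ β h hn
    have h1 : ∀ i, gq n (β - Pi.single i 1) = gf (β - Pi.single i 1) := fun i => by
      have h1 : ∑ j, (β - Pi.single i 1 : Fin l → ℕ) j + 1 = _ := sum_sub_single (h0 i)
      by_cases h2 : StrictMono (β - Pi.single i 1)
      · exact ih h2 (by omega)
      obtain ⟨j, k, h3, h4⟩ : ∃ j k, j < k ∧
          (β - Pi.single i 1 : Fin l → ℕ) k ≤ (β - Pi.single i 1 : Fin l → ℕ) j := by
        simpa [StrictMono] using h2
      have h5 := h h3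
      have h6 := h0 j
      have h7 : (β - Pi.single i 1 : Fin l → ℕ) j = (β - Pi.single i 1 : Fin l → ℕ) k ∧
          0 < (β - Pi.single i 1 : Fin l → ℕ) k := by
        simp only [Pi.sub_apply, Pi.single_apply] at h4 ⊢
        split_ifs at h4 ⊢ <;> omega
      rw [gq_eq n _ le_rfl fun i => (hle _ i).trans (by omega), pr_eq_zero (fun _ => by simp) h3
        (by exact_mod_cast h7.2) (by exact_mod_cast h7.1), gf, prod_eq_zero (mem_univ j)
        (f := fun j => ∏ k ∈ Ioi j, _) (prod_eq_zero (mem_Ioi.2 h3) (by simp only [h7.1, sub_self, zero_div]))]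
      simp
    have h2 : (∑ j, (β j : ℂ)) ≠ 0 := by rw [← Nat.cast_sum, hn]; norm_cast
    rw [gq, Multiset.replicate_succ, PP, Multiset.map_cons, Multiset.prod_cons, Ph_psum_mul]
    refine mul_left_cancel₀ h2 ?_
    conv_rhs => rw [← lagrange_aux h.injective h0, mul_comm, mul_sum]
    rw [mul_sum]
    refine sum_congr rfl fun i _ => ?_
    rw [← gf_sub h.injective h0, ← h1, gq, PP]
    congr 3
    funext j
    by_cases hj : j = i
    · simp [hj, Nat.cast_sub (h0 i)]
    · simp [hj]

theorem prod_en {A : Type*} [CommMonoid A] {N : ℕ} {S : Finset ℕ} (h : S.card = N) (f : ℕ → A) :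
    ∏ x ∈ S, f x = ∏ i, f (en N S i) := by
  conv_lhs => rw [← image_en h, prod_image fun _ _ _ _ e => (en_strictMono h).injective e]

theorem prod_pairs_en {A : Type*} [CommMonoid A] {N : ℕ} {S : Finset ℕ} (h : S.card = N)
    (F : ℕ → ℕ → A) : ∏ i, ∏ j ∈ Ioi i, F (en N S i) (en N S j) =
      ∏ a ∈ S, ∏ b ∈ S.filter (· < a), F b a := by
  simp only [prod_filter, prod_en h, (en_strictMono h).lt_iff_lt]
  rw [prod_comm]
  exact prod_congr rfl fun i _ => by rw [← prod_filter, filter_lt_eq_Ioi]

theorem XQ_one_mul {T : Finset ℕ} {n : ℕ} (hn : ∑ x ∈ T, x = n) :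
    XQ T (Multiset.replicate n 1) *
      (((∏ a ∈ T, a.factorial) * ∏ a ∈ T, ∏ b ∈ T.filter (· < a), (a + b) : ℕ) : ℂ) =
      ((n.factorial * ∏ a ∈ T, ∏ b ∈ T.filter (· < a), (a - b) : ℕ) : ℂ) := by
  have h1 := sum_en (N := T.card) rfl fun x => x
  have h2 := gq_eq_gf n (en_strictMono (S := T) rfl) (h1.trans hn)
  rw [gf, prod_pairs_en rfl fun b a => ((a : ℂ) - b) / (a + b), h1, hn,
    ← prod_en rfl fun x : ℕ => (x.factorial : ℂ)] at h2
  rw [XQ, ← gq, h2]
  push_cast
  rw [mul_mul_mul_comm, div_mul_cancel₀ _ (prod_ne_zero_iff.2 fun _ _ => by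
    exact_mod_cast Nat.factorial_ne_zero _),
    ← prod_mul_distrib]
  congr 1
  refine prod_congr rfl fun a _ => ?_
  rw [← prod_mul_distrib]
  refine prod_congr rfl fun b hb => ?_
  have := (mem_filter.1 hb).2
  rw [div_mul_cancel₀ _ (by norm_cast; omega), Nat.cast_sub this.le]

theorem Y_one_mul {N n : ℕ} {S : Finset ℕ} (hS : S ∈ SS N (d0 N + n)) :
    Y N (Multiset.replicate n 1) S * ((∏ a ∈ S, a.factorial : ℕ) : ℂ) =
      ((n.factorial * ∏ a ∈ S, ∏ b ∈ S.filter (· < a), (a - b) : ℕ) : ℂ) := by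
  obtain ⟨hc, hs⟩ := mem_SS.1 hS
  set β := en N S
  have h1 : ∑ i, β i = d0 N + n := (sum_en hc fun x => x).trans hs
  have h2 := Matrix.det_eval_matrixOfPolynomials_eq_det_vandermonde (fun i => (β i : ℂ))
    (fun j => descPochhammer ℂ j) (fun i => descPochhammer_natDegree ℂ i)
    fun i => monic_descPochhammer ℂ i
  rw [Matrix.det_vandermonde, prod_pairs_en hc fun b a => ((a : ℂ) - b), ← Matrix.det_transpose,
    Matrix.det_apply'] at h2
  push_cast
  rw [prod_congr rfl fun a _ => prod_congr rfl fun b hb => Nat.cast_sub (mem_filter.1 hb).2.le, h2,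
    prod_en hc, Y, X, mul_comm _ (aD N),
    aD, sum_mul, co_sum, sum_mul, mul_sum]
  refine sum_congr rfl fun σ _ => ?_
  simp only [co_monomial_mul, Matrix.transpose_apply, Matrix.of_apply,
    descPochhammer_eval_eq_descFactorial]
  split_ifs with h3
  · have h4 : ∑ i, (β - pv σ) i = n := by
      have := sum_pv σ
      have : ∑ i, (β - pv σ) i + ∑ i, pv σ i = ∑ i, β i := by
        rw [← sum_add_distrib]
        exact sum_congr rfl fun i _ => Nat.sub_add_cancel (h3 i)
      omega
    have h5 := Nat.multinomial_spec univ (β - pv σ)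
    rw [PP, Multiset.map_replicate, Multiset.prod_replicate, MvPolynomial.psum_one, co,
      MvPolynomial.coeff_sum_X_pow_of_fintype, Finsupp.sum_fintype _ _ (by simp),
      Finsupp.multinomial_eq_of_support_subset (subset_univ _), if_pos (by simpa using h4),
      Finsupp.coe_equivFunOnFinite_symm, ← h4, ← h5, prod_congr rfl fun i _ => congrArg _
      (Nat.factorial_mul_descFactorial (h3 i)).symm]
    push_cast
    simp only [prod_mul_distrib, Pi.sub_apply, pv]
    ring
  · obtain ⟨i, hi⟩ := not_forall.1 h3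
    rw [prod_eq_zero (f := fun i => ((β i).descFactorial (σ i) : ℂ)) (mem_univ i) (by
      exact_mod_cast Nat.descFactorial_of_lt (not_le.1 hi))]
    simp

variable {p : ℕ}

theorem sum_factorization_sub_le (hp : p.Prime) (S : Finset ℕ) :
    (∏ a ∈ S, ∏ b ∈ S.filter (· < a), (a - b)).factorization p + wt p S ≤
      (∏ a ∈ S, a.factorial).factorization p := by
  have h0 : ∀ (a : ℕ) (s : Finset ℕ), (∀ b ∈ s, b < a) → ∀ b ∈ s, a - b ≠ 0 := fun a s h b hb =>
    Nat.sub_ne_zero_of_lt (h b hb)
  rw [Nat.factorization_prod fun a _ => prod_ne_zero_iff.2 (h0 a _ fun b hb => (mem_filter.1 hb).2),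
    Nat.factorization_prod fun a _ => a.factorial_ne_zero, Finsupp.finsetSum_apply,
    Finsupp.finsetSum_apply, wt, ← sum_add_distrib]
  refine sum_le_sum fun a _ => ?_
  have h1 : a.factorial = ∏ b ∈ range a, (a - b) := by
    rw [← Nat.descFactorial_self, Nat.descFactorial_eq_prod_range]
  rw [h1, ← prod_filter_mul_prod_filter_not (range a) (· ∈ S),
    show (range a).filter (· ∈ S) = S.filter (· < a) by
      ext; simp [and_comm], Nat.factorization_mul
      (prod_ne_zero_iff.2 (h0 a _ fun b hb => (mem_filter.1 hb).2))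
      (prod_ne_zero_iff.2 (h0 a _ fun b hb => mem_range.1 (mem_filter.1 hb).1)), Finsupp.add_apply,
    Nat.factorization_prod (h0 a _ fun b hb => mem_range.1 (mem_filter.1 hb).1),
    Finsupp.finsetSum_apply, Nat.add_le_add_iff_left, ht, card_eq_sum_ones]
  refine (sum_le_sum fun b hb => ?_).trans (sum_le_sum_of_subset fun b hb => ?_)
  · simp only [mem_filter, mem_range] at hb
    exact hp.factorization_pos_of_dvd (by omega) ((Nat.modEq_iff_dvd' hb.1.le).1 hb.2.1)
  · simp only [mem_filter] at hb ⊢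
    exact ⟨hb.1, hb.2.2⟩

theorem prod_sub_ne_zero (S : Finset ℕ) : ∏ a ∈ S, ∏ b ∈ S.filter (· < a), (a - b) ≠ 0 :=
  prod_ne_zero_iff.2 fun _ _ => prod_ne_zero_iff.2 fun _ hb => Nat.sub_ne_zero_of_lt (mem_filter.1 hb).2

theorem eq_of_mul_cast {a b c d : ℕ} {ε x : ℂ} (hε : ε * ε = 1) (h1 : (a : ℂ) = ε * b * x)
    (h2 : x * c = d) : a * c = b * d := by
  have h3 : ((a * c : ℕ) : ℂ) ^ 2 = ((b * d : ℕ) : ℂ) ^ 2 := by
    push_cast
    rw [h1, ← h2]
    linear_combination (b * x * c : ℂ) ^ 2 * hε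
  exact (Nat.pow_left_inj two_ne_zero).1 (by exact_mod_cast h3)

theorem factorization_add_wt_le (hp : p.Prime) {N n d : ℕ} {S : Finset ℕ} (hS : S ∈ SS N (d0 N + n))
    {ε : ℂ} (hε : ε * ε = 1) (h : (d : ℂ) = ε * Y N (Multiset.replicate n 1) S) :
    d.factorization p + wt p S ≤ n.factorial.factorization p := by
  have h1 := eq_of_mul_cast (b := 1) hε (by simpa using h) (Y_one_mul hS)
  have h2 := mul_ne_zero n.factorial_ne_zero (prod_sub_ne_zero S)
  rw [one_mul] at h1
  have h3 := congrArg (Nat.factorization · p) h1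
  simp only [Nat.factorization_mul n.factorial_ne_zero (prod_sub_ne_zero S), Nat.factorization_mul
    (left_ne_zero_of_mul (h1 ▸ h2)) (right_ne_zero_of_mul (h1 ▸ h2)), Finsupp.add_apply] at h3
  have := sum_factorization_sub_le hp S
  omega

/-- The bar weight. -/
def wb (p : ℕ) (T : Finset ℕ) : ℕ := wt p T + ∑ a ∈ T, (T.filter fun b => b < a ∧ p ∣ a + b).card

theorem factorization_add_wb_le (hp : p.Prime) (h2 : p ≠ 2) {n d i j : ℕ} {T : Finset ℕ}
    (hn : ∑ x ∈ T, x = n) {ε : ℂ} (hε : ε * ε = 1)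
    (h : (2 : ℂ) ^ i * d = ε * 2 ^ j * XQ T (Multiset.replicate n 1)) :
    d.factorization p + wb p T ≤ n.factorial.factorization p := by
  have h1 := eq_of_mul_cast (a := 2 ^ i * d) (b := 2 ^ j) hε (by simpa using h) (XQ_one_mul hn)
  have h3 := mul_ne_zero (pow_ne_zero j two_ne_zero)
    (mul_ne_zero n.factorial_ne_zero (prod_sub_ne_zero T))
  have h4 := left_ne_zero_of_mul (h1 ▸ h3)
  have h5 := right_ne_zero_of_mul (h1 ▸ h3)
  have h6 := congrArg (Nat.factorization · p) h1
  simp only [Nat.factorization_mul n.factorial_ne_zero (prod_sub_ne_zero T), Nat.factorization_mul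
    h4 h5, Nat.factorization_mul (left_ne_zero_of_mul h3) (right_ne_zero_of_mul h3),
    Nat.factorization_mul (left_ne_zero_of_mul h4) (right_ne_zero_of_mul h4),
    Nat.factorization_mul (left_ne_zero_of_mul h5) (right_ne_zero_of_mul h5), Finsupp.add_apply,
    Nat.prime_two.factorization_pow, Finsupp.single_eq_of_ne h2] at h6
  have h7 := sum_factorization_sub_le hp T
  have h8 : ∑ a ∈ T, (T.filter fun b => b < a ∧ p ∣ a + b).card ≤
      (∏ a ∈ T, ∏ b ∈ T.filter (· < a), (a + b)).factorization p := by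
    have h0 : ∀ a, ∀ b ∈ T.filter (· < a), a + b ≠ 0 := fun a b hb => by
      have := (mem_filter.1 hb).2; omega
    rw [Nat.factorization_prod fun a _ => prod_ne_zero_iff.2 (h0 a), Finsupp.finsetSum_apply]
    refine sum_le_sum fun a _ => ?_
    rw [Nat.factorization_prod (h0 a), Finsupp.finsetSum_apply, card_eq_sum_ones]
    refine (sum_le_sum fun b hb => ?_).trans (sum_le_sum_of_subset fun b hb => ?_)
    · simp only [mem_filter] at hb
      exact hp.factorization_pos_of_dvd (by omega) hb.2.2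
    · simp only [mem_filter] at hb ⊢
      exact ⟨hb.1, hb.2.1⟩
  rw [wb]
  omega

theorem sum_add_wt_eq_of_res (hp : 0 < p) {S T : Finset ℕ} (h : res p S = res p T) :
    ∑ x ∈ S, x + p * wt p T = ∑ x ∈ T, x + p * wt p S := by
  have h1 := sum_eq_wt hp S
  have h2 := sum_eq_wt hp T
  have h3 := two_mul_sum_rk p S
  have h4 := two_mul_sum_rk p T
  have h5 : S.card = T.card := by simpa [res] using congrArg Multiset.card h
  have h6 : ∑ x ∈ S, x % p = ∑ x ∈ T, x % p := congrArg Multiset.sum h
  rw [h] at h3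
  have h7 : ∑ x ∈ S, rk p S x = ∑ x ∈ T, rk p T x := by omega
  rw [sum_add_distrib, ← mul_sum] at h1 h2
  rw [h7, h6] at h1
  omega

theorem sum_filter_le_wt (hp : 0 < p) {N : ℕ} {μ : Multiset ℕ} (hμ : ∀ r ∈ μ, 0 < r) {S : Finset ℕ}
    (hS : S.card = N) (h : Y N μ S ≠ 0) : (μ.filter (p ∣ ·)).sum ≤ p * wt p S := by
  rw [← Multiset.filter_add_not (p ∣ ·) μ] at h
  have h1 : ∀ r ∈ μ.filter (p ∣ ·), 0 < r ∧ p ∣ r := fun r hr =>
    ⟨hμ r (Multiset.mem_filter.1 hr).1, (Multiset.mem_filter.1 hr).2⟩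
  generalize μ.filter (p ∣ ·) = ν at h h1
  induction ν using Multiset.induction_on generalizing S with
  | empty => simp
  | cons r ν ih =>
    obtain ⟨h2, h3⟩ := h1 r (by simp)
    rw [Multiset.cons_add, Y_cons h2 _ hS] at h
    obtain ⟨x, hx, h⟩ := exists_ne_zero_of_sum_ne_zero h
    obtain ⟨h4, h5, h6⟩ := mem_filter.1 hx
    have h7 : x - r ∉ S.erase x := fun e => h6 (mem_of_mem_erase e)
    have h8 := ih (by rw [card_insert_of_notMem h7, card_erase_add_one h4, hS]) (right_ne_zero_of_mul h)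
      fun s hs => h1 s (by simp [hs])
    have h9 := sum_add_wt_eq_of_res hp (S := insert (x - r) (S.erase x)) (T := insert x (S.erase x)) (by
      rw [res, res, insert_val_of_notMem h7, insert_val_of_notMem (notMem_erase x S), Multiset.map_cons,
        Multiset.map_cons, (Nat.modEq_iff_dvd' (Nat.sub_le x r)).2 (by rwa [Nat.sub_sub_self h5])])
    rw [sum_insert h7, sum_insert (notMem_erase x S), insert_erase h4] at h9
    rw [Multiset.sum_cons]
    omega

/-- The charge of a part. -/
def ch (p : ℕ) (a : ℤ) : ZMod p → ℤ := Pi.single (a : ZMod p) 1 - Pi.single (-a : ZMod p) 1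

theorem four_mul_wb [hp : Fact p.Prime] (h2 : p ≠ 2) (T : Finset ℕ) :
    4 * (∑ a ∈ T, (a : ℤ) - p * wb p T) =
      ∑ j : ZMod p, (2 * j.val * (∑ a ∈ T, ch p a) j + p * (∑ a ∈ T, ch p a) j ^ 2) := by
  have h1 : ∀ (a : ℤ) (f : ZMod p → ℤ), ∑ j, f j * ch p a j = f a - f (-a) := fun a f => by
    simp [ch, mul_sub, Pi.single_apply]
  induction T using Finset.induction_on_max with
  | empty => simp [wb, wt]
  | insert a T ha ih =>
    have haT : a ∉ T := fun h => (ha a h).false
    set c := ∑ b ∈ T, ch p b with hc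
    have h3 : c a = (T.filter fun y => y % p = a % p).card - (T.filter fun b => p ∣ a + b).card ∧
        c (-a) = -c a := by
      simp only [hc, Finset.sum_apply, ch, Pi.sub_apply, Pi.single_apply, Int.cast_natCast,
        sum_sub_distrib, neg_sub, neg_eq_iff_eq_neg (a := (a : ZMod p)), neg_neg, sum_boole,
        and_true]
      congr 3
      · exact filter_congr fun y _ => by rw [ZMod.natCast_eq_natCast_iff', eq_comm]
      · exact filter_congr fun y _ => by
          rw [eq_neg_iff_add_eq_zero, ← Nat.cast_add, ZMod.natCast_eq_zero_iff]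
    have h4 : wb p (insert a T) + (T.filter fun y => y % p = a % p).card =
        wb p T + a / p + (T.filter fun b => p ∣ a + b).card := by
      have h4 : rk p (insert a T) a = (T.filter fun y => y % p = a % p).card := by
        rw [rk, filter_insert, if_neg (by simp)]
        exact congrArg _ (filter_congr fun y hy => and_iff_left (ha y hy))
      rw [wb, wb, wt, wt, sum_insert haT, sum_insert haT, ← rk_add_ht hp.out.pos (insert a T), h4,
        sum_congr rfl (f := ht p (insert a T)) (g := ht p T) fun x hx => congrArg card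
          (filter_congr fun y hy => by
            have := ha x hx; have := mem_range.1 hy
            rw [mem_insert, or_iff_right (by omega)]), filter_insert, if_neg (by simp),
        filter_congr fun y hy => and_iff_right (ha y hy),
        sum_congr rfl (f := fun x => card (filter _ (insert a T))) fun x hx => by
          rw [filter_insert, if_neg fun e => (ha x hx).not_gt e.1]]
      ring
    have h5 : 2 * ((a : ZMod p).val - (-a : ZMod p).val : ℤ) + p * (ch p a a - ch p a (-a)) =
        4 * (a : ZMod p).val := by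
      by_cases h5 : (a : ZMod p) = 0
      · simp [h5]
      · have h6 : (a : ZMod p) ≠ -a := fun e => h5 (by
          rw [eq_neg_iff_add_eq_zero, ← two_mul] at e
          exact (mul_eq_zero.1 e).resolve_left (Ring.two_ne_zero (by rwa [ZMod.ringChar_zmod_n])))
        rw [ZMod.neg_val, if_neg h5, Nat.cast_sub (ZMod.val_le _)]
        simp [ch, h6, h6.symm]
        ring
    have h6 : ∀ j : ZMod p, 2 * (j.val : ℤ) * (ch p a + c) j + p * (ch p a + c) j ^ 2 =
        (2 * j.val * c j + p * c j ^ 2) + (2 * j.val + p * ch p a j + 2 * p * c j) * ch p a j :=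
      fun j => by rw [Pi.add_apply]; ring
    have h7 := Nat.mod_add_div a p
    rw [sum_insert haT, sum_insert haT, ← hc, sum_congr rfl fun j _ => h6 j, sum_add_distrib, ← ih, h1,
      Int.cast_natCast, h3.2, h3.1]
    rw [← ZMod.val_natCast] at h7
    generalize (T.filter fun y => y % p = a % p).card = u at *
    generalize (T.filter fun b => p ∣ a + b).card = v at *
    zify at h4 h7
    linear_combination -4 * p * h4 - 4 * h7 - h5

theorem sum_filter_le_wb [Fact p.Prime] (h2 : p ≠ 2) {μ : Multiset ℕ} (hμ : ∀ r ∈ μ, Odd r)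
    {T : Finset ℕ} (hT : T ⊆ Icc 1 μ.sum) (h : XQ T μ ≠ 0) : (μ.filter (p ∣ ·)).sum ≤ p * wb p T := by
  have h1 : μ = ((μ.filter (p ∣ ·)).toList ++ (μ.filter (¬ p ∣ ·)).toList : List ℕ) := by
    rw [← Multiset.coe_add, Multiset.coe_toList, Multiset.coe_toList, Multiset.filter_add_not]
  rw [h1, ← uu_eq_XQ (M := μ.sum) (fun r hr => hμ r (h1 ▸ Multiset.mem_coe.2 hr))
    (by rw [← Multiset.sum_coe, ← h1]) hT] at h
  obtain ⟨S, -, -, h3⟩ := uu_append_ne_zero (ω := fun a => (a, ch p a)) (by simp [ch])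
    (fun a => by simp [ch]) (η := fun s => (s, 0)) (fun s hs a => by
      have := (ZMod.natCast_eq_zero_iff _ _).2 (Multiset.mem_filter.1 (Multiset.mem_toList.1 hs)).2
      simp [ch, this]) _ h
  have h6 : ∀ l : List ℕ, (l.map fun s : ℕ => ((s, 0) : ℤ × (ZMod p → ℤ))).sum = ((l.sum : ℤ), 0) :=
    fun l => by induction l <;> simp [*, Prod.ext_iff]
  rw [h6, Multiset.sum_toList, Prod.ext_iff] at h3
  simp only [Prod.fst_sum, Prod.snd_sum, Prod.fst_add, Prod.snd_add, add_zero] at h3
  have h8 := four_mul_wb (p := p) h2 T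
  rw [h3.2, ← four_mul_wb h2 S, h3.1] at h8
  generalize (μ.filter (p ∣ ·)).sum = m at *
  zify
  have : (0 : ℤ) ≤ p * wb p S := by positivity
  linarith

end SQ
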