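import Cfsg.Agent.Lib.Sym.Jw
import Cfsg.Agent.Lib.Sym.Sets

/-!
# Neutral fermions

The Fock space of strict partitions, the Heisenberg operators of odd degree and the orthogonality
relation for the coefficients of Schur's `Q`-functions.
-/

set_option autoImplicit false

namespace SQ

open Finset SFock

/-- The sign `(-1) ^ a`. -/
noncomputable def sgz (a : ℤ) : ℂ := (-1) ^ a

theorem sgz_add (a b : ℤ) : sgz (a + b) = sgz a * sgz b := zpow_add₀ (by simp) a b

theorem sgz_neg (a : ℤ) : sgz (-a) = sgz a := by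
  rw [sgz, zpow_neg, ← inv_zpow, inv_neg_one, sgz]

theorem sgz_mul_self (a : ℤ) : sgz a * sgz a = 1 := by
  rw [← sgz_add, sgz, Even.neg_one_zpow ⟨a, rfl⟩]

theorem sgz_odd {r : ℤ} (h : Odd r) : sgz r = -1 := h.neg_one_zpow

/-- A combination of the creation and the annihilation operator. -/
noncomputable def qq (a : ℕ) (x : ℂ) : Op ℕ := (1 + x • pp a) * cc a

theorem qq_apply (a : ℕ) (x : ℂ) (F : Fs ℕ) (T : Finset ℕ) : qq a x F T =
    (if a ∈ T then 1 - x else 1 + x) * (∏ b ∈ T, up a b) * F (tg a T) := by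
  simp only [qq, add_mul, one_mul, LinearMap.add_apply, Module.End.mul_apply, Fs.add_apply,
    pp_apply, cc_apply, LinearMap.smul_apply, Fs.smul_apply, smul_mul_assoc]
  split_ifs <;> ring

theorem qq_anti {a b : ℕ} (h : a ≠ b) (x y : ℂ) : qq a x * qq b y = -(qq b y * qq a x) := by
  have h1 : cc a * (1 + y • pp b) = (1 + y • pp b) * cc a := by
    simp [mul_add, add_mul, cc_pp_of_ne h]
  have h2 : cc b * (1 + x • pp a) = (1 + x • pp a) * cc b := by
    simp [mul_add, add_mul, cc_pp_of_ne h.symm]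
  have h3 : (1 + x • pp a) * (1 + y • pp b) = (1 + y • pp b) * (1 + x • pp a) := by
    simp only [mul_add, add_mul, one_mul, mul_one, smul_mul_smul_comm, pp, kk_comm (at' a), mul_comm x]
    abel
  rw [qq, qq, mul_assoc, ← mul_assoc (cc a), h1, mul_assoc, cc_anti h, ← mul_assoc, h3,
    mul_assoc _ (cc b), ← mul_assoc (cc b), h2]
  simp [mul_assoc]

theorem qq_same (a : ℕ) (x y : ℂ) : qq a x * qq a y = (1 - x * y) • 1 + (x - y) • pp a := by
  have h1 : cc a * (1 + y • pp a) = (1 - y • pp a) * cc a := by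
    simp [mul_add, cc_pp, sub_eq_add_neg, add_mul]
  rw [qq, qq, mul_assoc, ← mul_assoc (cc a), h1, mul_assoc, cc_mul_self]
  simp only [mul_sub, add_mul, mul_one, one_mul, smul_mul_smul_comm, pp_mul_self]
  module

theorem om_qq (a : ℕ) (x : ℂ) : om ℕ * qq a x = -(qq a x * om ℕ) := by
  have h1 : om ℕ * (1 + x • pp a) = (1 + x • pp a) * om ℕ := by
    simp [mul_add, add_mul, om, pp, kk_comm (at' a)]
  rw [qq, ← mul_assoc, h1, mul_assoc, mul_assoc, cc_om]
  simp

/-- The neutral fermions. -/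
noncomputable def ph (a : ℤ) : Op ℕ :=
  if a = 0 then om ℕ else if 0 < a then qq a.natAbs (-1) else (sgz a / 2) • qq a.natAbs 1

theorem ph_zero : ph 0 = om ℕ := if_pos rfl

theorem ph_pos {a : ℕ} (h : 0 < a) : ph a = qq a (-1) := by
  simp [ph, h.ne', h]

theorem ph_neg {a : ℕ} (h : 0 < a) : ph (-a) = (sgz a / 2) • qq a 1 := by
  simp [ph, h.ne', sgz_neg]

theorem int_cases (a : ℤ) : a = 0 ∨ ∃ n : ℕ, 0 < n ∧ (a = n ∨ a = -n) := by
  by_cases h : a = 0
  · exact Or.inl h
  · exact Or.inr ⟨a.natAbs, by omega, by omega⟩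

theorem ph_car (a b : ℤ) :
    ph a * ph b + ph b * ph a = (if a + b = 0 then 2 * sgz a else 0) • 1 := by
  rcases int_cases a with rfl | ⟨m, hm, rfl | rfl⟩ <;>
    rcases int_cases b with rfl | ⟨n, hn, rfl | rfl⟩ <;>
    simp only [ph_zero, ph_pos, ph_neg, *, mul_smul_comm, smul_mul_assoc, om_qq]
  · simp [om_mul_self, sgz, two_smul]
  · simp [hn.ne']
  · simp [hn.ne']
  · simp [hm.ne']
  · rw [if_neg (by omega)]
    by_cases h : m = n
    · simp [h, qq_same]
    · simp [qq_anti h]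
  · by_cases h : m = n
    · subst h
      simp only [qq_same, add_neg_cancel, if_true]
      module
    · rw [if_neg (by omega)]
      simp [qq_anti h]
  · simp [hm.ne']
  · by_cases h : m = n
    · subst h
      simp only [qq_same, neg_add_cancel, if_true, sgz_neg]
      module
    · rw [if_neg (by omega)]
      simp [qq_anti h]
  · rw [if_neg (by omega)]
    by_cases h : m = n
    · simp [h, qq_same]
    · rw [qq_anti h]
      module

theorem ph_anti {a b : ℤ} (h : a + b ≠ 0) : ph a * ph b = -(ph b * ph a) := by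
  rw [← add_eq_zero_iff_eq_neg, ph_car, if_neg h, zero_smul]

theorem ph_pos_apply {a : ℕ} (h : 0 < a) (F : Fs ℕ) (T : Finset ℕ) :
    ph a F T = if a ∈ T then 2 * (∏ b ∈ T, up a b) * F (tg a T) else 0 := by
  rw [ph_pos h, qq_apply]
  split_ifs <;> ring

theorem ph_neg_apply {a : ℕ} (h : 0 < a) (F : Fs ℕ) (T : Finset ℕ) :
    ph (-a) F T = if a ∈ T then 0 else sgz a * (∏ b ∈ T, up a b) * F (tg a T) := by
  rw [ph_neg h, LinearMap.smul_apply, Fs.smul_apply, qq_apply]
  split_ifs <;> ring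

/-- The vacuum. -/
noncomputable def vac : Fs ℕ := dl ∅

theorem ph_vac_of_neg {a : ℤ} (h : a < 0) : ph a vac = 0 := by
  obtain ⟨n, rfl⟩ : ∃ n : ℕ, a = -n := ⟨a.natAbs, by omega⟩
  ext T
  rw [ph_neg_apply (by omega)]
  split_ifs with h1
  · rfl
  · simp [vac, dl_apply, tg, h1]

theorem ph_zero_vac : ph 0 vac = vac := by
  ext T
  by_cases h : T = ∅ <;> simp [ph_zero, om_apply, vac, dl_apply, h]

theorem ph_dl {a : ℕ} (h : 0 < a) {S : Finset ℕ} (ha : a ∉ S) :
    ph a (dl S) = (2 * ∏ b ∈ S, up a b) • dl (insert a S) := by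
  rw [ph_pos h, qq, Module.End.mul_apply, cc_dl, tg, if_neg ha]
  simp only [map_smul, LinearMap.add_apply, Module.End.one_apply, LinearMap.smul_apply, pp_dl,
    mem_insert_self, if_true]
  module

theorem ph_ne_zero {A : Type*} [AddCommGroup A] {ω : ℤ → A} (h0 : ω 0 = 0) (hω : ∀ a, ω (-a) = -ω a)
    {a : ℤ} {F : Fs ℕ} {T : Finset ℕ} (h : ph a F T ≠ 0) : ∃ S, F S ≠ 0 ∧ (0 ∈ T ↔ 0 ∈ S) ∧
      ∑ x ∈ T, ω x = ∑ x ∈ S, ω x + ω a := by
  rcases int_cases a with rfl | ⟨n, hn, rfl | rfl⟩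
  · exact ⟨T, right_ne_zero_of_mul (om_apply F T ▸ h), Iff.rfl, by rw [h0, add_zero]⟩
  · rw [ph_pos_apply hn] at h
    split_ifs at h with h1
    · exact ⟨_, right_ne_zero_of_mul h, by simp [mem_tg, hn.ne],
        by rw [tg, if_pos h1, sum_erase_add _ _ h1]⟩
    · exact absurd rfl h
  · rw [ph_neg_apply hn] at h
    split_ifs at h with h1
    · exact absurd rfl h
    · exact ⟨_, right_ne_zero_of_mul h, by simp [mem_tg, hn.ne],
        by rw [tg, if_neg h1, sum_insert h1, hω]; abel⟩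

/-- The invariant form. -/
noncomputable def bf (M : ℕ) : Fs ℕ →ₗ[ℂ] Fs ℕ →ₗ[ℂ] ℂ :=
  LinearMap.mk₂ ℂ (fun F G => ∑ T ∈ powerset (Icc 1 M), (1 / 2) ^ T.card * F T * G T)
    (by simp [mul_add, add_mul, sum_add_distrib]) (by simp [mul_sum, mul_assoc, mul_left_comm])
    (by simp [mul_add, sum_add_distrib]) (by simp [mul_sum, mul_left_comm])

variable {M : ℕ}

theorem bf_apply (F G : Fs ℕ) :
    bf M F G = ∑ T ∈ powerset (Icc 1 M), (1 / 2) ^ T.card * F T * G T := rfl

theorem bf_comm (F G : Fs ℕ) : bf M F G = bf M G F := by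
  simp only [bf_apply, mul_right_comm]

theorem bf_dl (F : Fs ℕ) {S : Finset ℕ} (h : S ⊆ Icc 1 M) :
    bf M F (dl S) = (1 / 2) ^ S.card * F S := by
  simp [bf_apply, dl_apply, h]

theorem bf_ph_pos {a : ℕ} (h : 0 < a) (ha : a ≤ M) (F G : Fs ℕ) :
    bf M (ph a F) G = sgz a * bf M F (ph (-a) G) := by
  simp only [bf_apply, mul_sum, ph_pos_apply h, ph_neg_apply h]
  have h1 : ∀ T ∈ powerset (Icc 1 M), tg a T ∈ powerset (Icc 1 M) := fun T hT =>
    mem_powerset.2 fun b hb => by
      rw [mem_tg] at hb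
      split_ifs at hb with h2
      exacts [mem_Icc.2 ⟨h2 ▸ h, h2 ▸ ha⟩, mem_powerset.1 hT hb]
  refine sum_nbij' (tg a) (tg a) h1 h1 (fun _ _ => tg_tg _ _) (fun _ _ => tg_tg _ _) fun T _ => ?_
  simp only [mem_tg, if_true, tg_tg, prod_tg (up_mul_self a a), up_self, one_mul]
  by_cases h2 : a ∈ T
  · simp only [h2, if_true, not_true, if_false]
    rw [← card_erase_add_one h2, tg, if_pos h2]
    linear_combination (-(1 / 2) ^ (T.erase a).card * (∏ b ∈ T, up a b) * F (T.erase a) * G T) *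
      sgz_mul_self a
  · simp [h2]

theorem bf_ph {a : ℤ} (ha : |a| ≤ M) (F G : Fs ℕ) :
    bf M (ph a F) G = sgz a * bf M F (ph (-a) G) := by
  rcases int_cases a with rfl | ⟨n, hn, rfl | rfl⟩
  · simp only [bf_apply, neg_zero, ph_zero, om_apply, sgz, zpow_zero, one_mul]
    exact sum_congr rfl fun _ _ => by ring
  · exact bf_ph_pos hn (by simpa using ha) F G
  · rw [neg_neg, bf_comm F, bf_ph_pos hn (by simpa using ha), ← mul_assoc, sgz_neg, sgz_mul_self,
      one_mul, bf_comm]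

/-- The index set of the Heisenberg operators. -/
noncomputable def ix (M : ℕ) (r : ℤ) : Finset ℤ := (Icc (-M : ℤ) M).filter fun a => |a + r| ≤ M

theorem mem_ix {r a : ℤ} : a ∈ ix M r ↔ |a| ≤ M ∧ |a + r| ≤ M := by
  rw [ix, mem_filter, mem_Icc, abs_le (a := a)]

/-- The Heisenberg operators. -/
noncomputable def hh (M : ℕ) (r : ℤ) : Op ℕ :=
  ∑ a ∈ ix M r, (-sgz a / 4) • (ph a * ph (-a - r))

theorem hh_ph {r c : ℤ} (hr : Odd r) (h1 : |c| ≤ M) (h2 : |c - r| ≤ M) :
    hh M r * ph c = ph c * hh M r + ph (c - r) := by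
  have h3 : ∀ a : ℤ, (-sgz a / 4) • (ph a * ph (-a - r)) * ph c =
      ph c * (-sgz a / 4) • (ph a * ph (-a - r)) + ((if c - r = a then (1 / 2 : ℂ) • ph (c - r) else 0) +
        if -c = a then (1 / 2 : ℂ) • ph (c - r) else 0) := fun a => by
    have h3 := ph_car (-a - r) c
    have h4 := ph_car a c
    have h5 : ph a * ph (-a - r) * ph c = ph c * (ph a * ph (-a - r)) +
        ((if -a - r + c = 0 then 2 * sgz (-a - r) else 0) • ph a -
          (if a + c = 0 then 2 * sgz a else 0) • ph (-a - r)) := by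
      rw [← mul_one (ph a), ← mul_smul_comm, ← h3, ← one_mul (ph (-a - r)), ← smul_mul_assoc, ← h4]
      noncomm_ring
    rw [smul_mul_assoc, mul_smul_comm, h5, smul_add, smul_sub, smul_smul, smul_smul,
      sub_eq_add_neg (_ • _), ← neg_smul]
    congr 2
    · split_ifs with h6 h7 h7
      · rw [h7, sub_eq_add_neg, sgz_add, sgz_neg, sgz_neg, sgz_odd hr]
        congr 1
        linear_combination sgz_mul_self a / 2
      · omega
      · omega
      · simp
    · split_ifs with h6 h7 h7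
      · rw [← h7, neg_neg]
        congr 1
        linear_combination sgz_mul_self (-c) / 2
      · omega
      · omega
      · simp
  simp only [hh, sum_mul, mul_sum, h3, sum_add_distrib, sum_ite_eq, mem_ix, sub_add_cancel, h1, h2,
    abs_neg, neg_add_eq_sub, abs_sub_comm r c, and_self, if_true]
  module

theorem hh_ph_apply {r c : ℤ} (hr : Odd r) (h1 : |c| ≤ M) (h2 : |c - r| ≤ M) (F : Fs ℕ) :
    hh M r (ph c F) = ph c (hh M r F) + ph (c - r) F :=
  LinearMap.congr_fun (hh_ph hr h1 h2) F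

theorem bf_hh {r : ℤ} (hr : Odd r) (F G : Fs ℕ) : bf M (hh M r F) G = bf M F (hh M (-r) G) := by
  simp only [hh, LinearMap.sum_apply, map_sum, LinearMap.smul_apply, map_smul, Module.End.mul_apply]
  refine sum_nbij' (· + r) (· - r) (by simp +contextual [mem_ix]) (fun a ha => ?_) (by simp) (by simp)
    fun a ha => ?_
  · simpa [mem_ix, and_comm, sub_eq_add_neg] using ha
  · rw [mem_ix] at ha
    rw [bf_ph ha.1, bf_ph (by rw [← neg_add', abs_neg]; exact ha.2), ← neg_add', neg_neg, sgz_neg,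
      show -(a + r) - -r = -a by ring]
    simp only [smul_eq_mul, sgz_add, sgz_odd hr]
    linear_combination (sgz a / 4 * bf M F (ph (a + r) (ph (-a) G))) * sgz_mul_self a

theorem ph_ph_vac {a b : ℤ} (h : a < 0) :
    ph a (ph b vac) = (if a + b = 0 then 2 * sgz a else 0) • vac := by
  simpa only [LinearMap.add_apply, Module.End.mul_apply, ph_vac_of_neg h, map_zero, add_zero,
    LinearMap.smul_apply, Module.End.one_apply] using LinearMap.congr_fun (ph_car a b) vac

theorem hh_vac {r : ℤ} (hr : 0 < r) : hh M r vac = 0 := by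
  rw [hh, LinearMap.sum_apply]
  refine sum_eq_zero fun a _ => ?_
  rw [LinearMap.smul_apply, Module.End.mul_apply]
  by_cases h : a < 0
  · rw [ph_ph_vac h, if_neg (by omega), zero_smul, smul_zero]
  · rw [ph_vac_of_neg (by omega), map_zero, smul_zero]

theorem hh_hh_vac {r s : ℕ} (hr : Odd r) (hs : 0 < s) (hrM : r ≤ M) (hsM : s ≤ M) :
    hh M r (hh M (-s) vac) = (if r = s then (r : ℂ) / 2 else 0) • vac := by
  have hr0 := hr.pos
  set f : ℤ → Fs ℕ := fun b => (-sgz b / 4) • ph b (ph (s - r - b) vac) with hf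
  have h1 : hh M (-s) vac = ∑ a ∈ Icc (0 : ℤ) s, (-sgz a / 4) • ph a (ph (s - a) vac) := by
    simp only [hh, LinearMap.sum_apply, LinearMap.smul_apply, Module.End.mul_apply, sub_neg_eq_add,
      neg_add_eq_sub]
    refine (sum_subset (fun a ha => ?_) fun a _ ha => ?_).symm
    · rw [mem_Icc] at ha
      rw [mem_ix, abs_le, abs_le]
      omega
    · rw [mem_Icc] at ha
      by_cases h : a < 0
      · rw [ph_ph_vac h, if_neg (by omega), zero_smul, smul_zero]
      · rw [ph_vac_of_neg (by omega), map_zero, smul_zero]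
  have h2 : ∀ a ∈ Icc (0 : ℤ) s, hh M r ((-sgz a / 4) • ph a (ph (s - a) vac)) = f a - f (a - r) :=
    fun a ha => by
    rw [mem_Icc] at ha
    have h3 : Odd (r : ℤ) := by exact_mod_cast hr
    rw [map_smul, hh_ph_apply h3, hh_ph_apply h3, hh_vac (by omega), map_zero, zero_add, hf]
    · simp only [sub_eq_add_neg a, sgz_add, sgz_neg, sgz_odd h3]
      rw [show s - a - r = s - r - a by ring, show s - r - (a + -r) = s - a by ring]
      module
    all_goals rw [abs_le]; omega
  have h3 : ∑ a ∈ Icc (0 : ℤ) s, f (a - r) = ∑ a ∈ Icc (-r : ℤ) s, f a := by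
    rw [← sum_subset (s₁ := Icc (-r : ℤ) (s - r)) (Icc_subset_Icc_right (by omega)) fun a h1 h2 => by
      rw [mem_Icc] at h1 h2
      simp only [hf]
      rw [ph_vac_of_neg (by omega), map_zero, smul_zero]]
    exact sum_nbij' (· - r) (· + r) (by simp only [mem_Icc]; omega) (by simp only [mem_Icc]; omega)
      (by simp) (by simp) (by simp)
  have h4 : Icc (-r : ℤ) s = Ico (-r : ℤ) 0 ∪ Icc (0 : ℤ) s := by
    ext a; simp only [mem_Icc, mem_union, mem_Ico]; omega
  rw [h1, map_sum, sum_congr rfl h2, sum_sub_distrib, h3, h4, sum_union (by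
    simp only [disjoint_left, mem_Icc, mem_Ico]; omega), sub_add_cancel_right,
    sum_congr rfl (g := fun _ => (if r = s then (-1 : ℂ) / 2 else 0) • vac) fun a ha => ?_]
  · rw [sum_const, Int.card_Ico, ← Nat.cast_smul_eq_nsmul ℂ]
    simp only [sub_neg_eq_add, zero_add, Int.toNat_natCast]
    split_ifs <;> module
  · simp only [hf]
    rw [ph_ph_vac (mem_Ico.1 ha).2, smul_smul]
    congr 1
    split_ifs with h5 h6 h6
    · linear_combination -sgz_mul_self a / 2
    · omega
    · omega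
    · simp

theorem hh_hh {r s : ℕ} (hr : Odd r) (hs : Odd s) (hrM : r ≤ M) (hsM : s ≤ M) {F : Fs ℕ}
    (hF : ∀ T, F T ≠ 0 → T ⊆ Icc 1 (M - s)) : hh M r (hh M (-s) F) =
      hh M (-s) (hh M r F) + (if r = s then (r : ℂ) / 2 else 0) • F := by
  have h1 : Odd (r : ℤ) := by exact_mod_cast hr
  have h2 : Odd (-s : ℤ) := Odd.neg (by exact_mod_cast hs)
  have h3 : ∀ T ⊆ Icc 1 (M - s), hh M r (hh M (-s) (dl T)) =
      hh M (-s) (hh M r (dl T)) + (if r = s then (r : ℂ) / 2 else 0) • dl T := fun T hT => by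
    induction T using Finset.induction_on with
    | empty =>
      rw [← vac, hh_hh_vac hr hs.pos hrM hsM, hh_vac (by exact_mod_cast hr.pos), map_zero, zero_add]
    | insert a T ha ih =>
      have h3 := mem_Icc.1 (hT (mem_insert_self a T))
      have h4 : (2 * ∏ b ∈ T, up a b) ≠ 0 := mul_ne_zero two_ne_zero (prod_ne_zero_iff.2 fun b _ =>
        left_ne_zero_of_mul_eq_one (up_mul_self a b))
      rw [← inv_smul_smul₀ h4 (dl _), ← ph_dl h3.1 ha]
      simp only [map_smul]
      rw [hh_ph_apply h2, hh_ph_apply h1, map_add, map_add, hh_ph_apply h2, hh_ph_apply h1,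
        hh_ph_apply h1, hh_ph_apply h2, ih ((subset_insert a T).trans hT), map_add, map_smul,
        sub_right_comm]
      · module
      all_goals rw [abs_le]; omega
  rw [eq_sum_dl (s := powerset (Icc 1 (M - s))) fun T h => mem_powerset.2 (hF T h)]
  simp only [map_sum, map_smul, smul_sum, ← sum_add_distrib]
  exact sum_congr rfl fun T hT => by rw [h3 T (mem_powerset.1 hT), smul_add, smul_comm]

theorem hh_ne_zero {A : Type*} [AddCommGroup A] {ω : ℤ → A} (h0 : ω 0 = 0) (hω : ∀ a, ω (-a) = -ω a)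
    {r : ℤ} {x : A} (hr : ∀ a, ω (-a - r) + ω a = x) {F : Fs ℕ} {T : Finset ℕ}
    (h : hh M r F T ≠ 0) : ∃ S, F S ≠ 0 ∧ (0 ∈ T ↔ 0 ∈ S) ∧ ∑ y ∈ T, ω y = ∑ y ∈ S, ω y + x := by
  rw [hh, LinearMap.sum_apply, Fs.sum_apply] at h
  obtain ⟨a, -, h⟩ := exists_ne_zero_of_sum_ne_zero h
  obtain ⟨S, h1, h2, h3⟩ := ph_ne_zero h0 hω (right_ne_zero_of_mul h)
  obtain ⟨S', h4, h5, h6⟩ := ph_ne_zero h0 hω h1
  exact ⟨S', h4, h2.trans h5, by rw [h3, h6, add_assoc, hr]⟩

/-- The power sums in the Fock space. -/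
noncomputable def uu (M : ℕ) (l : List ℕ) : Fs ℕ := l.foldr (fun (s : ℕ) F => hh M (-s) F) vac

theorem uu_nil : uu M [] = dl ∅ := rfl

theorem uu_cons (s : ℕ) (l : List ℕ) : uu M (s :: l) = hh M (-s) (uu M l) := rfl

theorem uu_append_ne_zero {A : Type*} [AddCommGroup A] {ω : ℤ → A} (h0 : ω 0 = 0)
    (hω : ∀ a, ω (-a) = -ω a) {η : ℕ → A} {l : List ℕ} (hl : ∀ s ∈ l, ∀ a, ω (-a - -s) + ω a = η s)
    (l' : List ℕ) {T : Finset ℕ} (h : uu M (l ++ l') T ≠ 0) : ∃ S, uu M l' S ≠ 0 ∧ (0 ∈ T ↔ 0 ∈ S) ∧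
      ∑ y ∈ T, ω y = ∑ y ∈ S, ω y + (l.map η).sum := by
  induction l generalizing T with
  | nil => exact ⟨T, h, Iff.rfl, by simp⟩
  | cons s l ih =>
    obtain ⟨S, h1, h2, h3⟩ := hh_ne_zero h0 hω (hl s (by simp)) h
    obtain ⟨S', h4, h5, h6⟩ := ih (fun t ht => hl t (by simp [ht])) h1
    exact ⟨S', h4, h2.trans h5, by rw [h3, h6, List.map_cons, List.sum_cons]; abel⟩

theorem uu_ne_zero {l : List ℕ} {T : Finset ℕ} (h : uu M l T ≠ 0) : 0 ∉ T ∧ ∑ y ∈ T, y = l.sum := by
  obtain ⟨S, h1, h2, h3⟩ := uu_append_ne_zero (ω := id) rfl (fun _ => rfl) (η := fun s => s) (l := l)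
    (fun s _ a => by simp) [] (by simpa using h)
  obtain rfl : S = ∅ := by simpa [uu, vac, dl_apply] using h1
  refine ⟨by simpa using h2, ?_⟩
  simp only [id, sum_empty, zero_add] at h3
  rw [← Nat.cast_list_sum, ← Nat.cast_sum] at h3
  exact Nat.cast_injective h3

theorem uu_subset {l : List ℕ} {T : Finset ℕ} (h : uu M l T ≠ 0) : T ⊆ Icc 1 l.sum := fun _ ha =>
  mem_Icc.2 ⟨Nat.pos_of_ne_zero fun e => (uu_ne_zero h).1 (e ▸ ha),
    (uu_ne_zero h).2 ▸ single_le_sum (f := fun y => y) (fun _ _ => Nat.zero_le _) ha⟩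

/-- Products of fermions. -/
noncomputable def pr : (l : ℕ) → (Fin l → ℤ) → Op ℕ
  | 0, _ => 1
  | l + 1, β => pr l (Fin.tail β) * ph (β 0)

theorem pr_succ {l : ℕ} (β : Fin (l + 1) → ℤ) : pr (l + 1) β = pr l (Fin.tail β) * ph (β 0) := rfl

theorem hh_pr {r : ℤ} (hr : Odd r) {l : ℕ} {β : Fin l → ℤ} (h : ∀ i, |β i| ≤ M ∧ |β i - r| ≤ M) :
    hh M r * pr l β = pr l β * hh M r + ∑ i, pr l (β - Pi.single i r) := by
  induction l with
  | zero => simp [pr]
  | succ l ih =>
    rw [pr_succ, ← mul_assoc, ih (β := Fin.tail β) fun i => h _, add_mul, mul_assoc, hh_ph hr (h 0).1 (h 0).2,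
      Fin.sum_univ_succ, sum_mul, mul_add, add_assoc, ← mul_assoc]
    congr 2
    · rw [pr_succ]
      congr 2
      funext i; simp [Fin.tail]
    · refine sum_congr rfl fun i _ => ?_
      rw [pr_succ]
      congr 2
      · funext j; simp [Fin.tail, Pi.single_apply]
      · simp

theorem pr_dl {l : ℕ} {β : Fin l → ℕ} (h : StrictMono β) {S : Finset ℕ} (h0 : ∀ i, 0 < β i)
    (hS : ∀ i, ∀ x ∈ S, x < β i) : pr l (fun i => β i) (dl S) = 2 ^ l • dl (univ.image β ∪ S) := by
  induction l generalizing S with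
  | zero => simp [pr]
  | succ l ih =>
    rw [pr_succ, Module.End.mul_apply, ph_dl (h0 0) fun e => (hS 0 _ e).false, map_smul,
      prod_eq_one (f := up (β 0)) fun b hb => if_neg (hS 0 b hb).not_gt]
    erw [ih (β := Fin.tail β) (h.comp Fin.strictMono_succ) (fun i => h0 _) fun i x hx => by
      rcases mem_insert.1 hx with rfl | hx
      exacts [h (Fin.succ_pos i), hS _ x hx]]
    rw [Fin.univ_succ, cons_eq_insert, image_insert, map_eq_image, image_image, union_insert,
      insert_union, pow_succ', mul_one, mul_smul, ← Nat.cast_smul_eq_nsmul ℂ 2]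
    rfl

/-- Vacuum expectation values. -/
noncomputable def cv {l : ℕ} (β : Fin l → ℤ) : ℂ := pr l β vac ∅

theorem exists_int_pr {l : ℕ} (β : Fin l → ℤ) {F : Fs ℕ} {k : ℕ} (hF : ∀ T, ∃ z : ℤ, F T = 2 ^ k * z)
    (T : Finset ℕ) : ∃ z : ℤ, pr l β F T = 2 ^ (k + (univ.filter fun i => 0 < β i).card) * z := by
  induction l generalizing F k with
  | zero => simpa [pr] using hF T
  | succ l ih =>
    have h1 : ∀ (n : ℕ) (T : Finset ℕ), ∃ z : ℤ, ∏ b ∈ T, up n b = z := fun n T =>
      ⟨∏ b ∈ T, if n < b then -1 else 1, by simp [up, apply_ite (Int.cast : ℤ → ℂ)]⟩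
    rw [pr_succ, Module.End.mul_apply, Fin.card_filter_univ_succ', ← add_assoc]
    refine ih _ fun T => ?_
    rcases int_cases (β 0) with h | ⟨n, hn, h | h⟩ <;> rw [h]
    · obtain ⟨z, hz⟩ := hF T
      exact ⟨(-1) ^ T.card * z, by simp [ph_zero, om_apply, hz, mul_left_comm]⟩
    · obtain ⟨z, hz⟩ := hF (tg n T)
      obtain ⟨y, hy⟩ := h1 n T
      exact ⟨if n ∈ T then y * z else 0, by
        rw [ph_pos_apply hn, if_pos (by omega : (0 : ℤ) < n), hz, hy]; split_ifs <;> push_cast <;> ring⟩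
    · obtain ⟨z, hz⟩ := hF (tg n T)
      obtain ⟨y, hy⟩ := h1 n T
      exact ⟨if n ∈ T then 0 else (-1) ^ n * y * z, by
        rw [ph_neg_apply hn, if_neg (by omega : ¬ (0 : ℤ) < -n), hz, hy, sgz, zpow_natCast]
        split_ifs <;> push_cast <;> ring⟩

theorem exists_int_cv {l : ℕ} (β : Fin l → ℤ) :
    ∃ z : ℤ, cv β = 2 ^ (univ.filter fun i => 0 < β i).card * z := by
  simpa [cv] using exists_int_pr β (F := vac) (k := 0)
    (fun T => ⟨if T = ∅ then 1 else 0, by simp [vac, dl_apply]⟩) ∅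

/-- The pairing of polynomials with products of fermions. -/
noncomputable def Ph {l : ℕ} (β : Fin l → ℤ) : MvPolynomial (Fin l) ℂ →ₗ[ℂ] ℂ :=
  (MvPolynomial.basisMonomials (Fin l) ℂ).constr ℂ fun γ => cv (β - fun i => (γ i : ℤ))

theorem Ph_monomial {l : ℕ} (β : Fin l → ℤ) (γ : Fin l →₀ ℕ) :
    Ph β (MvPolynomial.monomial γ 1) = cv (β - fun i => (γ i : ℤ)) := by
  simpa [Ph] using (MvPolynomial.basisMonomials (Fin l) ℂ).constr_basis ℂ
    (fun γ => cv (β - fun i => (γ i : ℤ))) γ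

theorem Ph_psum_mul {l : ℕ} (β : Fin l → ℤ) (r : ℕ) (P : MvPolynomial (Fin l) ℂ) :
    Ph β (MvPolynomial.psum (Fin l) ℂ r * P) = ∑ i, Ph (β - Pi.single i (r : ℤ)) P := by
  induction P using MvPolynomial.induction_on' with
  | monomial u a =>
    rw [show MvPolynomial.monomial u a = a • MvPolynomial.monomial u 1 by
      simp [MvPolynomial.smul_monomial], mul_smul_comm, map_smul,
      MvPolynomial.psum, sum_mul, map_sum, smul_sum]
    refine sum_congr rfl fun i _ => ?_
    rw [map_smul, MvPolynomial.X_pow_eq_monomial, MvPolynomial.monomial_mul, one_mul, Ph_monomial,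
      Ph_monomial]
    congr 2
    funext j
    simp only [Pi.sub_apply, Finsupp.add_apply, Finsupp.single_apply, Pi.single_apply, eq_comm (a := i)]
    split_ifs <;> push_cast <;> ring
  | add f g hf hg => simp only [mul_add, map_add, hf, hg, sum_add_distrib]

theorem bf_uu_pr {μ : List ℕ} (hμ : ∀ r ∈ μ, Odd r) {l : ℕ} {β : Fin l → ℤ}
    (h : ∀ i, -M + μ.sum ≤ β i ∧ β i ≤ M) : bf M (uu M μ) (pr l β vac) = Ph β (PP l μ) := by
  induction μ generalizing β with
  | nil =>
    rw [bf_comm, uu_nil, bf_dl _ (empty_subset _), PP]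
    simpa [cv, show (fun _ => 0 : Fin l → ℤ) = 0 from rfl] using (Ph_monomial β 0).symm
  | cons r μ ih =>
    have h1 : Odd (r : ℤ) := by exact_mod_cast hμ r (by simp)
    simp only [List.sum_cons, Nat.cast_add] at h
    rw [uu_cons, bf_hh h1.neg, neg_neg, ← Module.End.mul_apply, hh_pr h1 fun i => by
      have := h i; rw [abs_le, abs_le]; omega, LinearMap.add_apply, Module.End.mul_apply,
      hh_vac (by exact_mod_cast (hμ r (by simp)).pos), map_zero, zero_add, LinearMap.sum_apply, map_sum,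
      ← Multiset.cons_coe, PP, Multiset.map_cons, Multiset.prod_cons, Ph_psum_mul]
    refine sum_congr rfl fun i _ => ih (fun s hs => hμ s (by simp [hs])) fun j => ?_
    have := h j
    simp only [Pi.sub_apply, Pi.single_apply]
    split_ifs <;> omega

/-- The coefficients of Schur's `Q`-functions. -/
noncomputable def XQ (T : Finset ℕ) (μ : Multiset ℕ) : ℂ :=
  Ph (fun i => (en T.card T i : ℤ)) (PP T.card μ)

theorem uu_eq_XQ {μ : List ℕ} (hμ : ∀ r ∈ μ, Odd r) (hM : μ.sum ≤ M) {T : Finset ℕ}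
    (hT : T ⊆ Icc 1 M) : uu M μ T = XQ T μ := by
  have h1 := fun i => mem_Icc.1 (hT (en_mem rfl i))
  rw [XQ, ← bf_uu_pr (M := M) hμ fun i => by have := h1 i; omega, vac,
    pr_dl (en_strictMono rfl) (fun i => (h1 i).1) (by simp), image_en rfl, union_empty, map_nsmul,
    bf_dl _ hT]
  simp

theorem uu_perm {μ ν : List ℕ} (hμ : ∀ r ∈ μ, Odd r) (hM : μ.sum ≤ M) (h : μ.Perm ν) :
    uu M μ = uu M ν := by
  ext T
  by_cases hT : T ⊆ Icc 1 M
  · rw [uu_eq_XQ hμ hM hT, uu_eq_XQ (fun r hr => hμ r (h.mem_iff.2 hr)) (h.sum_eq ▸ hM) hT,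
      Multiset.coe_eq_coe.2 h]
  · rw [not_not.1 (mt uu_subset fun e => hT (e.trans (Icc_subset_Icc_right hM))),
      not_not.1 (mt uu_subset fun e => hT (e.trans (Icc_subset_Icc_right (h.sum_eq ▸ hM))))]

theorem hh_uu {r : ℕ} (hr : Odd r) (hrM : r ≤ M) {ν : List ℕ} (hν : ∀ s ∈ ν, Odd s)
    (hM : ν.sum ≤ M) : hh M r (uu M ν) = ((r : ℂ) / 2 * ν.count r) • uu M (ν.erase r) := by
  induction ν with
  | nil => simpa [uu] using hh_vac (by exact_mod_cast hr.pos)
  | cons s ν ih =>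
    rw [List.sum_cons] at hM
    have h1 := fun t ht => hν t (List.mem_cons_of_mem s ht)
    rw [uu_cons, hh_hh hr (hν s (by simp)) hrM (by omega) fun T hT =>
      (uu_subset hT).trans (Icc_subset_Icc_right (by omega)), ih h1 (by omega), map_smul, ← uu_cons]
    split_ifs with h
    · subst h
      rw [List.erase_cons_head, List.count_cons_self]
      by_cases h2 : r ∈ ν
      · rw [← uu_perm h1 (by omega) (List.perm_cons_erase h2)]
        push_cast
        module
      · simp [List.count_eq_zero_of_not_mem h2]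
    · rw [List.erase_cons_tail (by simpa using Ne.symm h), List.count_cons_of_ne (Ne.symm h), zero_smul,
        add_zero]

theorem bf_uu_uu {μ ν : List ℕ} (hμ : ∀ r ∈ μ, Odd r) (hν : ∀ r ∈ ν, Odd r) (h1 : μ.sum ≤ M)
    (h2 : ν.sum ≤ M) : bf M (uu M μ) (uu M ν) =
      if (μ : Multiset ℕ) = ν then (zz μ : ℂ) / 2 ^ μ.length else 0 := by
  induction μ generalizing ν with
  | nil =>
    rw [bf_comm, uu_nil, bf_dl _ (empty_subset _)]
    cases ν with
    | nil => simp [uu, vac, dl_apply, zz]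
    | cons s ν =>
      have := (hν s (by simp)).pos
      rw [not_not.1 (mt uu_ne_zero fun h => by simp at h; omega),
        if_neg (by simpa using Multiset.zero_ne_cons (a := s) (m := ν)), mul_zero]
  | cons r μ ih =>
    have h3 := hμ r (by simp)
    rw [List.sum_cons] at h1
    rw [uu_cons, bf_hh (Odd.neg (by exact_mod_cast h3)), neg_neg, hh_uu h3 (by omega) hν h2, map_smul,
      ih (fun s hs => hμ s (by simp [hs])) (fun s hs => hν s (List.mem_of_mem_erase hs)) (by omega)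
        ((List.erase_sublist.sum_le_sum (by simp)).trans h2), ← Multiset.cons_coe]
    by_cases h4 : r ∈ ν
    · rw [Multiset.coe_eq_coe.2 (List.perm_cons_erase h4), ← Multiset.cons_coe]
      simp only [Multiset.cons_inj_right]
      split_ifs with h5
      · rw [(List.perm_cons_erase h4).count_eq, List.count_cons_self, zz_cons,
          ← (Multiset.coe_eq_coe.1 h5).count_eq, Multiset.coe_count]
        simp only [smul_eq_mul, List.length_cons]
        push_cast
        ring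
      · simp
    · rw [List.count_eq_zero_of_not_mem h4, if_neg (c := r ::ₘ _ = _) fun e => h4
        (Multiset.mem_coe.1 (by rw [← e]; simp))]
      simp

theorem sum_XQ_mul {μ ν : Multiset ℕ} (hμ : ∀ r ∈ μ, Odd r) (hν : ∀ r ∈ ν, Odd r) (h1 : μ.sum ≤ M)
    (h2 : ν.sum ≤ M) : ∑ T ∈ powerset (Icc 1 M), (1 / 2) ^ T.card * XQ T μ * XQ T ν =
      if μ = ν then (zz μ : ℂ) / 2 ^ μ.card else 0 := by
  induction μ using Quotient.inductionOn with | _ μ =>
  induction ν using Quotient.inductionOn with | _ ν =>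
  refine Eq.trans (sum_congr rfl fun T hT => ?_) (bf_uu_uu hμ hν h1 h2)
  rw [uu_eq_XQ hμ h1 (mem_powerset.1 hT), uu_eq_XQ hν h2 (mem_powerset.1 hT)]
  rfl

end SQ
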