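import Cfsg.Agent.Lib.Sym.SpinInt
import Cfsg.Agent.Lib.Sym.QDeg
import Cfsg.Agent.Lib.Sym.Hook

/-!
# Spin characters of a double cover of the symmetric group

Every spin character agrees on the even elements, up to sign, with the class function of a strict
partition.
-/

set_option autoImplicit false

namespace SQ

open Finset Equiv Equiv.Perm Cfsg CT SFock

variable {α : Type*} [LinearOrder α] [Fintype α] [DecidableEq α] {G : Type*} [Group G]

/-- A double cover of the symmetric group with its representation on the Clifford module. -/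
structure Spin (π : G →* Perm α) (ρ : G →* Op α) (z : G) : Prop where
  surj : Function.Surjective π
  lift : ∀ g, Lift (π g) (ρ g)
  ker : ∀ g, π g = 1 → g = 1 ∨ g = z
  map_z : π z = 1
  rho_z : ρ z = -1

variable {π : G →* Perm α} {ρ : G →* Op α} {z : G}

/-- The trace of the Clifford representation. -/
noncomputable def tr (ρ : G →* Op α) (g : G) : ℂ := LinearMap.trace ℂ _ (ρ g)

/-- The spin class function of a strict partition. -/
noncomputable def yq (π : G →* Perm α) (ρ : G →* Op α) (T : Finset ℕ) (g : G) : ℂ :=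
  2 ^ ((Fintype.card α - T.card) / 2) / 2 ^ Fintype.card α * tr ρ g * XQ T (π g).partition.parts

omit [LinearOrder α] [DecidableEq α] in
theorem one_ne_neg_one : (1 : Op α) ≠ -1 := fun h => by
  have := congrArg (LinearMap.trace ℂ _) h
  rw [map_neg, trace_one_op, self_eq_neg] at this
  simp at this

namespace Spin

variable (S : Spin π ρ z)
include S

theorem eq_or {g h : G} (e : π g = π h) : g = h ∨ g = z * h := by
  simpa [mul_inv_eq_iff_eq_mul] using S.ker (g * h⁻¹) (by simp [e])

theorem ne_mul (g : G) : g ≠ z * g := fun h => one_ne_neg_one (α := α) (by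
  rw [← S.rho_z, right_eq_mul.1 h, map_one])

theorem mem_center : z ∈ Subgroup.center G := Subgroup.mem_center_iff.2 fun g => by
  rcases S.ker (g * z * g⁻¹) (by simp [S.map_z]) with h | h
  · exact absurd (by simpa using h) (S.ne_mul 1).symm
  · exact mul_inv_eq_iff_eq_mul.1 h

theorem mul_self : z * z = 1 :=
  (S.ker _ (by simp [S.map_z])).resolve_right (S.ne_mul z).symm

theorem tr_mul (g : G) : tr ρ (z * g) = -tr ρ g := by simp [tr, S.rho_z]

theorem eq_zero {F : G → ℂ} (h1 : IsClassFunction G F) (h2 : ∀ g, F (z * g) = -F g) {g : G}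
    (hg : sign (π g) = 1) (h : ¬ ∀ r ∈ (π g).partition.parts, Odd r) : F g = 0 := by
  obtain ⟨c, C, -, h3, h4, h5, h6⟩ := (S.lift g).exists_anti hg h
  obtain ⟨c, rfl⟩ := S.surj c
  obtain ⟨κ, hκ⟩ := (S.lift c).exists_eq_smul h5 h4
  have h7 : ρ (c * g) = ρ (z * (g * c)) := by simp [hκ, h6, S.rho_z]
  rcases S.eq_or (g := c * g) (h := g * c) (by simpa using h3.eq) with h8 | h8
  · rw [h8, map_mul ρ z, S.rho_z] at h7
    exact absurd (((Group.isUnit _).map ρ).mul_right_cancel ((one_mul _).trans h7)) one_ne_neg_one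
  · have := h1.mul_comm c⁻¹ (c * g)
    rw [inv_mul_cancel_left, h8, ← mul_assoc, mul_inv_cancel_right, h2] at this
    linear_combination this / 2

theorem tr_eq_zero {g : G} (h : ¬ ∀ r ∈ (π g).partition.parts, Odd r) : tr ρ g = 0 := by
  rcases Int.units_eq_one_or (sign (π g)) with h1 | h1
  · exact S.eq_zero (fun g h => Representation.char_conj ρ g h) S.tr_mul h1 h
  · exact (S.lift g).trace_eq_zero h1

theorem mul_tr_eq {F : G → ℂ} (h1 : IsClassFunction G F) (h2 : ∀ g, F (z * g) = -F g) {g h : G}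
    (e : IsConj (π g) (π h)) : F h * tr ρ h⁻¹ = F g * tr ρ g⁻¹ := by
  obtain ⟨c, hc⟩ := isConj_iff.1 e
  obtain ⟨c, rfl⟩ := S.surj c
  have h3 : tr ρ (c * g * c⁻¹)⁻¹ = tr ρ g⁻¹ := by
    rw [mul_inv_rev, inv_inv, mul_inv_rev, ← mul_assoc]
    exact Representation.char_conj ρ g⁻¹ c
  rcases S.eq_or (g := h) (h := c * g * c⁻¹) (by simp [hc]) with rfl | rfl
  · rw [h1, h3]
  · rw [h2, h1, mul_inv_rev, ← eq_inv_of_mul_eq_one_left S.mul_self,
      Subgroup.mem_center_iff.1 S.mem_center, S.tr_mul, h3, neg_mul_neg]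

variable [Fintype G]

theorem sum_zz (σ : Perm α) : ∑ h : G, (if (π h).partition.parts = σ.partition.parts then
    (zz σ.partition.parts : ℂ) else 0) = Nat.card G := by
  have h1 := sum_comp_of_surjective π S.surj fun _ => 1
  rw [sum_comp_of_surjective π S.surj fun τ => if τ.partition.parts = σ.partition.parts then
    (zz σ.partition.parts : ℂ) else 0]
  simp only [sum_const, card_univ, nsmul_eq_mul, mul_one] at h1
  rw [Nat.card_eq_fintype_card (α := G), h1, ← card_univ (α := Perm α),
    card_eq_sum_card_fiberwise (f := fun y => y⁻¹ * σ * y) (t := univ) (by simp)]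
  rw [Nat.cast_sum]
  refine congrArg _ (sum_congr rfl fun τ _ => ?_)
  have h2 := card_filter_conj_eq σ τ
  simp only [partition_eq_of_isConj, Nat.Partition.ext_iff, ← zz_parts,
    eq_comm (a := σ.partition.parts)] at h2
  convert h2.symm
  rfl

/-- Expansion of a spin class function that vanishes on the odd elements. -/
theorem expansion {F : G → ℂ} (h1 : IsClassFunction G F) (h2 : ∀ g, F (z * g) = -F g)
    (h3 : ∀ g, sign (π g) = -1 → F g = 0) (g : G) :
    F g = ∑ T ∈ powerset (Icc 1 (Fintype.card α)), 2 ^ ((Fintype.card α - T.card) % 2) *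
      ((Nat.card G : ℂ)⁻¹ * ∑ h, yq π ρ T h * F h⁻¹) * yq π ρ T g := by
  by_cases hg : ∀ r ∈ (π g).partition.parts, Odd r; swap
  · simp only [yq, S.tr_eq_zero hg, mul_zero, zero_mul, sum_const_zero]
    exact (Int.units_eq_one_or _).elim (fun h => S.eq_zero h1 h2 h hg) (h3 g)
  have h4 : ∀ h, ∑ T ∈ powerset (Icc 1 (Fintype.card α)), 2 ^ ((Fintype.card α - T.card) % 2) *
      (yq π ρ T h * F h⁻¹) * yq π ρ T g = F g * if (π h).partition.parts = (π g).partition.parts
        then (zz (π g).partition.parts : ℂ) else 0 := fun h => by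
    have h4 : ∀ T ∈ powerset (Icc 1 (Fintype.card α)), 2 ^ ((Fintype.card α - T.card) % 2) *
        (yq π ρ T h * F h⁻¹) * yq π ρ T g = F h⁻¹ * tr ρ h * tr ρ g / 2 ^ Fintype.card α *
          ((1 / 2) ^ T.card * XQ T (π h).partition.parts * XQ T (π g).partition.parts) := by
      intro T hT
      have h4 := card_le_card (mem_powerset.1 hT)
      have h5 : (2 : ℂ) ^ Fintype.card α = 2 ^ ((Fintype.card α - T.card) % 2) *
          (2 ^ ((Fintype.card α - T.card) / 2)) ^ 2 * 2 ^ T.card := by
        rw [← pow_mul, ← pow_add, ← pow_add]; congr 1; simp at h4; omega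
      simp only [yq, one_div, inv_pow]
      field_simp
      rw [h5]
      ring
    rw [sum_congr rfl h4, ← mul_sum]
    by_cases hh : ∀ r ∈ (π h).partition.parts, Odd r; swap
    · rw [S.tr_eq_zero hh, if_neg fun e => hh (by rwa [e])]
      simp
    rw [sum_XQ_mul hh hg (π h).partition.parts_sum.le (π g).partition.parts_sum.le]
    split_ifs with e
    · have h5 := S.mul_tr_eq h1 h2 (g := g) (h := h⁻¹) (by
        rw [partition_eq_of_isConj, Nat.Partition.ext_iff, ← e, map_inv, parts_partition,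
          parts_partition, cycleType_inv, support_inv])
      have h6 : tr ρ g * tr ρ g⁻¹ = _ := (S.lift g).trace_mul_trace hg (by rw [← map_mul]; simp)
      rw [inv_inv] at h5
      rw [h5, e, mul_assoc (F g), mul_comm (tr ρ g⁻¹), h6, pow_add]
      field_simp
    · simp
  simp only [mul_sum, sum_mul]
  rw [sum_comm]
  simp only [mul_left_comm _ (Nat.card G : ℂ)⁻¹, mul_assoc (Nat.card G : ℂ)⁻¹, ← mul_sum, h4,
    S.sum_zz]
  rw [mul_left_comm, inv_mul_cancel₀ card_cast_ne_zero, mul_one]

omit S in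
theorem _root_.SQ.exists_unique_of_sum {ι : Type*} [DecidableEq ι] {s : Finset ι} {b : ι → ℤ} {N : ℤ}
    (hN : 0 < N) (h : ∑ i ∈ s, b i = N) (h1 : ∀ i ∈ s, b i = 0 ∨ N ≤ b i) :
    ∃ i ∈ s, b i = N ∧ ∀ j ∈ s, j ≠ i → b j = 0 := by
  obtain ⟨i, hi, h2⟩ := exists_ne_zero_of_sum_ne_zero (h ▸ hN.ne' :)
  have h3 : ∀ j ∈ s.erase i, 0 ≤ b j := fun j hj => by
    have := h1 j (mem_of_mem_erase hj); omega
  have h4 := sum_nonneg h3
  have h5 := h1 i hi
  rw [← add_sum_erase s b hi] at h
  exact ⟨i, hi, by omega, fun j hj e => (sum_eq_zero_iff_of_nonneg h3).1 (by omega) j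
    (mem_erase.2 ⟨e, hj⟩)⟩

theorem exists_single {F : G → ℂ} (h1 : IsCharacter G F) (h2 : ∀ g, F (z * g) = -F g)
    (h3 : ∀ g, sign (π g) = -1 → F g = 0) {N : ℤ} (h4 : ip F F = N) (h5 : 0 < N) (h6 : N ≤ 2)
    (h7 : ∀ Θ, IsGeneralizedCharacter G Θ → (∀ g, sign (π g) = -1 → Θ g = 0) →
      ∀ a : ℤ, ip Θ F = a → a = 0 ∨ N ≤ a ^ 2) :
    ∃ T ⊆ Icc 1 (Fintype.card α), ∃ a : ℤ, 2 ^ ((Fintype.card α - T.card) % 2) * a ^ 2 = N ∧
      ∀ g, F g = 2 ^ ((Fintype.card α - T.card) % 2) * a * yq π ρ T g := by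
  have h8 : ∀ T ∈ powerset (Icc 1 (Fintype.card α)), ∃ a : ℤ,
      (Nat.card G : ℂ)⁻¹ * ∑ h, yq π ρ T h * F h⁻¹ = a ∧
      (a = 0 ∨ N ≤ 2 ^ ((Fintype.card α - T.card) % 2) * a ^ 2) := fun T hT => by
    have h8 := card_le_card (mem_powerset.1 hT)
    rw [Nat.card_Icc] at h8
    obtain ⟨Θ, a1, a2, a3⟩ := exists_isGen S.lift (T := T) (k := (Fintype.card α - T.card) / 2)
      (fun h => by simpa using mem_powerset.1 hT h) (by omega)
    obtain ⟨a, ha⟩ := a1.exists_int_ip h1.isGen
    refine ⟨a, ?_, ?_⟩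
    · rw [← ha, ip_eq_sum_inv _ h1]
      refine congrArg _ (sum_congr rfl fun g _ => ?_)
      rcases Int.units_eq_one_or (sign (π g)) with h | h
      · rw [a2 g h]; rfl
      · rw [h3 _ (by simpa), mul_zero, mul_zero]
    · rcases Nat.mod_two_eq_zero_or_one (Fintype.card α - T.card) with h | h
      · simpa [h] using h7 Θ a1 (a3 (by omega)) a ha
      · rw [h, or_iff_not_imp_left]
        exact fun h => by nlinarith [pow_pos (abs_pos.2 h) 2, sq_abs a]
  choose! a ha hb using h8
  have h9 : ∀ g, F g = ∑ T ∈ powerset (Icc 1 (Fintype.card α)),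
      2 ^ ((Fintype.card α - T.card) % 2) * a T * yq π ρ T g := fun g =>
    (S.expansion h1.isClassFunction h2 h3 g).trans (sum_congr rfl fun T hT => by rw [ha T hT])
  have h10 : ∑ T ∈ powerset (Icc 1 (Fintype.card α)),
      2 ^ ((Fintype.card α - T.card) % 2) * a T ^ 2 = N := by
    rw [← Int.cast_inj (α := ℂ), ← h4, ip_eq_sum_inv _ h1,
      sum_congr rfl fun g _ => congrArg (· * F g⁻¹) (h9 g)]
    simp only [sum_mul]
    rw [sum_comm, mul_sum, Int.cast_sum]
    refine sum_congr rfl fun T hT => ?_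
    simp only [mul_assoc _ (yq π ρ T _), ← mul_sum]
    rw [mul_left_comm, ha T hT]
    push_cast
    ring
  obtain ⟨T, hT, h11, h12⟩ := exists_unique_of_sum h5 h10 fun T hT => (hb T hT).imp_left (by simp)
  refine ⟨T, mem_powerset.1 hT, a T, h11, fun g => (h9 g).trans (sum_eq_single_of_mem T hT
    fun U hU e => ?_)⟩
  rw [show a U = 0 by simpa using h12 U hU e]
  simp

/-- Every spin character is, on the even elements, one of the functions `yq` up to sign. -/
theorem exists_eq_yq (χ : IrrCharacter G) (hχ : ∀ g, χ.1 (z * g) = -χ.1 g) :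
    ∃ T ⊆ Icc 1 (Fintype.card α), ∃ ε : ℂ, ε * ε = 1 ∧
      ∀ g, sign (π g) = 1 → χ.1 g = ε * yq π ρ T g := by
  have h0 := isIrrCharacter_of_monoidHom
    (⟨⟨fun g => sn (π g), by simp [sn]⟩, fun g h => by simp [sn]⟩ : G →* ℂ)
  obtain ⟨χ', h1⟩ : ∃ χ' : IrrCharacter G, ∀ g, χ'.1 g = χ.1 g * sn (π g) :=
    ⟨⟨_, χ.2.mul_linear h0.isCharacter (charDegree_eq_of_apply_one (by simp [sn]))⟩, fun _ => rfl⟩
  by_cases h2 : χ = χ'
  · obtain ⟨T, hT, a, h3, h4⟩ := S.exists_single (irr_isCharacter χ) hχ (fun g hg => by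
      have := h1 g
      simp only [← h2, sn, hg, Units.val_neg, Units.val_one, Int.cast_neg, Int.cast_one] at this
      linear_combination this / 2) (N := 1) (by simpa using ip_irr_self χ) one_pos one_le_two
      fun _ _ _ a _ => or_iff_not_imp_left.2 fun h => by nlinarith [pow_pos (abs_pos.2 h) 2, sq_abs a]
    rcases Nat.mod_two_eq_zero_or_one (Fintype.card α - T.card) with h | h <;> rw [h] at h3 h4
    · exact ⟨T, hT, a, by exact_mod_cast (by simpa [sq] using h3), fun g _ => by simpa using h4 g⟩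
    · omega
  · obtain ⟨T, hT, a, h3, h4⟩ := S.exists_single ((irr_isCharacter χ).add (irr_isCharacter χ'))
      (fun g => by simp [h1, hχ, S.map_z, add_comm]) (fun g hg => by simp [h1, sn, hg]) (N := 2)
      (by simp [ip_add_left, ip_add_right, ip_irr, h2, Ne.symm h2, one_add_one_eq_two]) two_pos
      le_rfl fun Θ a1 a2 a ha => by
        obtain ⟨b, hb⟩ := a1.exists_int_ip (irr_isCharacter χ).isGen
        have h3 : ip Θ χ'.1 = ip Θ χ.1 := by
          rw [ip_def, ip_def]
          refine congrArg _ (sum_congr rfl fun g _ => ?_)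
          rcases Int.units_eq_one_or (sign (π g)) with h | h
          · simp [h1, sn, h]
          · simp [a2 g h]
        rw [ip_add_right, h3, hb] at ha
        obtain rfl : b + b = a := by exact_mod_cast ha
        exact or_iff_not_imp_left.2 fun h => by
          nlinarith [pow_pos (abs_pos.2 (show b ≠ 0 by omega)) 2, sq_abs b]
    rcases Nat.mod_two_eq_zero_or_one (Fintype.card α - T.card) with h | h <;> rw [h] at h3 h4
    · have : a ≤ 1 ∧ -1 ≤ a := by constructor <;> nlinarith
      nlinarith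
    · refine ⟨T, hT, a, by exact_mod_cast (by nlinarith : a * a = 1), fun g hg => ?_⟩
      have := h4 g
      simp only [Pi.add_apply, h1, sn, hg, Units.val_one, Int.cast_one] at this
      linear_combination this / 2

/-- The bar weight of a spin character. -/
theorem exists_wt {p : ℕ} [hp : Fact p.Prime] (hp2 : p ≠ 2) (χ : IrrCharacter G)
    (hχ : ∀ g, χ.1 (z * g) = -χ.1 g) : ∃ W : ℕ, (charDegree χ.1).factorization p + W ≤
      (Fintype.card α).factorial.factorization p ∧
      ∀ g, sign (π g) = 1 → χ.1 g ≠ 0 → divLen p (π g) ≤ p * W := by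
  obtain ⟨T, hT, ε, h1, h2⟩ := S.exists_eq_yq χ hχ
  have h3 := h2 1 (by simp)
  have h4 : (1 : Perm α).partition.parts = Multiset.replicate (Fintype.card α) 1 := by
    simp [parts_partition]
  rw [irr_apply_one, yq, tr, map_one ρ, map_one π, trace_one_op, div_mul_cancel₀ _ (by simp), h4] at h3
  refine ⟨wb p T, factorization_add_wb_le hp.out hp2 (i := 0) ?_ h1 (by rw [mul_assoc]; simpa),
    fun g hg h => ?_⟩
  · have h5 : XQ T (List.replicate (Fintype.card α) 1) ≠ 0 := fun h => (irr_degree_pos χ).ne' (by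
      rw [Multiset.coe_replicate] at h
      exact_mod_cast (by simpa [h] using h3 : (charDegree χ.1 : ℂ) = 0))
    rw [← uu_eq_XQ (M := Fintype.card α) (by simp) (by simp) hT] at h5
    simpa using (uu_ne_zero h5).2
  · rw [h2 g hg, yq] at h
    have h5 := right_ne_zero_of_mul h
    refine le_trans ?_ (sum_filter_le_wb hp2 (not_not.1 (mt S.tr_eq_zero (right_ne_zero_of_mul
      (left_ne_zero_of_mul h5)))) (by rwa [(π g).partition.parts_sum]) (right_ne_zero_of_mul h5))
    rw [divLen, parts_partition, Multiset.filter_add, Multiset.sum_add]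
    exact Nat.le_add_right _ _

end Spin

end SQ
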