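import Cfsg.Agent.Lib.Sym.SpinChar

/-!
# The double covers of the symmetric and alternating groups

A concrete double cover of the symmetric group, and the weight bound for the faithful characters of
a perfect double cover of the alternating group.
-/

set_option autoImplicit false

namespace SQ

open Finset Equiv Equiv.Perm Cfsg CT SFock

variable {α : Type*} [LinearOrder α] [Fintype α] [DecidableEq α]

/-- The standard bilinear form. -/
noncomputable def bq (F G : Fs α) : ℂ := ∑ T, F T * G T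

omit [DecidableEq α] in
theorem bq_cc (a : α) (F G : Fs α) : bq (cc a F) G = bq F (cc a G) := by
  refine sum_equiv (Function.Involutive.toPerm _ (tg_tg a)) (by simp) fun T _ => ?_
  change _ = F (tg a T) * cc a G (tg a T)
  simp only [cc_apply, tg_tg, prod_tg (up_mul_self a a), up_self]
  ring

omit [DecidableEq α] in
theorem bq_tv {a b : α} (h : a ≠ b) {c : ℂ} (hc : c * c * 2 = 1) (F G : Fs α) :
    bq ((c • tv a b) F) ((c • tv a b) G) = bq F G := by
  have h1 : ∀ F G, bq (tv a b F) G = bq F (tv a b G) := fun F G => by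
    have := bq_cc a F G
    have := bq_cc b F G
    simp_all [tv, bq, sub_mul, mul_sub]
  have h2 := h1 F (tv a b G)
  rw [← Module.End.mul_apply, tv_mul_self h] at h2
  simp only [bq, LinearMap.smul_apply, Fs.smul_apply, Module.End.one_apply] at h2 ⊢
  simp only [mul_mul_mul_comm c, mul_left_comm (F _), ← mul_sum] at h2 ⊢
  rw [h2, ← mul_assoc, hc, one_mul]

variable (α) in
/-- The group of orthogonal lifts of permutations. -/
def Pin : Subgroup (Perm α × (Op α)ˣ) where
  carrier := {x | Lift x.1 x.2 ∧ ∀ F G, bq (x.2.1 F) (x.2.1 G) = bq F G}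
  mul_mem' ha hb := ⟨ha.1.mul hb.1, fun F G => (ha.2 _ _).trans (hb.2 F G)⟩
  one_mem' := ⟨lift_one, fun _ _ => rfl⟩
  inv_mem' {x} hx := ⟨hx.1.inv x.2.mul_inv, fun F G => by
    rw [← hx.2, ← Module.End.mul_apply, ← Module.End.mul_apply]
    simp⟩

variable (α) in
/-- The projection to the symmetric group. -/
noncomputable def Pin.pi : Pin α →* Perm α := (MonoidHom.fst _ _).comp (Pin α).subtype

variable (α) in
/-- The Clifford representation. -/
noncomputable def Pin.rho : Pin α →* Op α :=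
  ((Units.coeHom _).comp (MonoidHom.snd _ _)).comp (Pin α).subtype

variable (α) in
/-- The central involution. -/
noncomputable def Pin.zz : Pin α :=
  ⟨(1, -1), by simpa using lift_one.smul (-1), fun F G => by simp [bq]⟩

theorem Pin.exists_swap {a b : α} (h : a ≠ b) : ∃ c : ℂ, c * c * 2 = 1 ∧ ∃ x : Pin α,
    Pin.pi α x = swap a b ∧ Pin.rho α x = c • tv a b := by
  obtain ⟨c, hc⟩ := IsAlgClosed.exists_eq_mul_self (2⁻¹ : ℂ)
  have h1 : c * c * 2 = 1 := by rw [← hc]; norm_num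
  have h2 : (c • tv a b) * (c • tv a b) = 1 := by
    rw [smul_mul_smul_comm, tv_mul_self h, smul_smul, h1, one_smul]
  exact ⟨c, h1, ⟨(swap a b, ⟨_, _, h2, h2⟩), (lift_tv h).smul c, bq_tv h h1⟩, rfl, rfl⟩

variable (α) in
theorem spin_pin : Spin (Pin.pi α) (Pin.rho α) (Pin.zz α) where
  surj := MonoidHom.range_eq_top.1 (top_le_iff.1 (closure_isSwap (α := α) ▸
    (Subgroup.closure_le _).2 fun _ ⟨a, b, h, e⟩ =>
      let ⟨_, _, x, hx, _⟩ := Pin.exists_swap h; ⟨x, hx.trans e.symm⟩))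
  lift g := g.2.1
  ker g hg := by
    obtain ⟨κ, hκ⟩ := (show Lift 1 g.1.2.1 from hg ▸ g.2.1).exists_eq_smul lift_one isUnit_one
    have h1 := g.2.2 (dl ∅) (dl ∅)
    simp only [hκ, bq, LinearMap.smul_apply, Module.End.one_apply, Fs.smul_apply, dl_apply, mul_ite,
      mul_one, mul_zero, sum_ite_eq', mem_univ, if_true] at h1
    refine (mul_self_eq_one_iff.1 h1).imp (fun h => ?_) fun h => ?_ <;>
      exact Subtype.ext (Prod.ext hg (Units.ext (hκ.trans (by simp [h, Pin.zz]))))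
  map_z := rfl
  rho_z := rfl

instance instFinitePin : Finite (Pin α) :=
  (Pin.pi α).finite_iff_finite_ker_range.2 ⟨Set.Finite.subset (Set.toFinite {1, Pin.zz α})
    (spin_pin α).ker, inferInstance⟩

theorem Pin.exists_sq (h : 4 ≤ Fintype.card α) : ∃ x : Pin α, sign (Pin.pi α x) = 1 ∧
    Pin.pi α x ^ 2 = 1 ∧ Pin.rho α x ^ 2 = -1 := by
  obtain ⟨f⟩ := Function.Embedding.nonempty_of_card_le (α := Fin 4) (β := α) (by simpa)
  have h0 : ∀ {i j : Fin 4}, i ≠ j → f i ≠ f j := fun h => f.injective.ne h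
  obtain ⟨c, hc, x, h1, h2⟩ := Pin.exists_swap (h0 (by decide : (0 : Fin 4) ≠ 1))
  obtain ⟨d, hd, y, h3, h4⟩ := Pin.exists_swap (h0 (by decide : (2 : Fin 4) ≠ 3))
  have h5 : tv (f 2) (f 3) * tv (f 0) (f 1) = -(tv (f 0) (f 1) * tv (f 2) (f 3)) := by
    simp only [tv, mul_sub, sub_mul, cc_anti (h0 (by decide : (2 : Fin 4) ≠ 0)),
      cc_anti (h0 (by decide : (2 : Fin 4) ≠ 1)), cc_anti (h0 (by decide : (3 : Fin 4) ≠ 0)),
      cc_anti (h0 (by decide : (3 : Fin 4) ≠ 1))]
    abel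
  refine ⟨x * y, by simp [h1, h3], ?_, ?_⟩
  · rw [map_mul, h1, h3, Commute.mul_pow (disjoint_swap_swap (by simp)).commute]
    simp [sq]
  · rw [map_mul, h2, h4, smul_mul_smul_comm, sq, smul_mul_smul_comm, mul_assoc (tv _ _),
      ← mul_assoc (tv (f 2) _), h5, neg_mul, mul_assoc (tv _ _), tv_mul_self (by simp), mul_neg,
      ← mul_assoc (tv _ _), tv_mul_self (by simp), smul_mul_smul_comm, one_mul, smul_neg, smul_smul,
      show c * d * (c * d) * (2 * 2) = 1 by linear_combination d * d * 2 * hc + hd, one_smul]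

universe u

/-- A perfect double cover of the alternating group embeds in `Pin`. -/
theorem exists_hom_pin {n : ℕ} (hn : 4 ≤ n) {H : Type u} [Group H] [Finite H]
    (π : H →* Perm (Fin n)) (hr : π.range = alternatingGroup (Fin n))
    (hc : π.ker ≤ Subgroup.center H) (hk : Nat.card π.ker = 2) (hperf : commutator H = ⊤)
    (hbound : ∀ (L : Type u) [Group L] [Finite L] (σ : L →* Perm (Fin n)),
      σ.range = alternatingGroup (Fin n) → σ.ker ≤ Subgroup.center L → commutator L = ⊤ →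
      (∀ x ∈ σ.ker, x ^ 2 = 1) → Nat.card σ.ker ≤ 2) :
    ∃ e : H ≃* (alternatingGroup (Fin n)).comap (Pin.pi (Fin n)), ∀ h, Pin.pi _ (e h) = π h := by
  have S := spin_pin (Fin n)
  let L₀ := (π.comp (MonoidHom.fst H (Pin (Fin n)))).eqLocus ((Pin.pi _).comp (MonoidHom.snd _ _))
  have h0 : ∀ x ∈ L₀, π x.1 = Pin.pi _ x.2 := fun _ h => h
  have h1 : ⁅L₀, L₀⁆.map (MonoidHom.fst _ _) = ⊤ := by
    rw [Subgroup.map_commutator, show L₀.map (MonoidHom.fst _ _) = ⊤ from top_le_iff.1 fun h _ =>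
      let ⟨x, hx⟩ := S.surj (π h); ⟨(h, x), hx.symm, rfl⟩]
    exact hperf
  let f := (MonoidHom.fst H _).comp ⁅L₀, L₀⁆.subtype
  have h2 : Function.Surjective f := fun h =>
    let ⟨x, hx, e⟩ := h1.ge (Subgroup.mem_top h); ⟨⟨x, hx⟩, e⟩
  have h3 : ⁅L₀, L₀⁆ ≤ L₀ := Subgroup.commutator_le.2 fun a ha b hb =>
    mul_mem (mul_mem (mul_mem ha hb) (inv_mem ha)) (inv_mem hb)
  have h4 : ∀ x ∈ L₀, π x.1 = 1 → x ∈ Subgroup.center _ ∧ x ^ 2 = 1 := fun x hx h => by
    have h4 := S.ker _ ((h0 x hx).symm.trans h)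
    have h5 : x.2 ∈ Subgroup.center _ := h4.elim (· ▸ one_mem _) (· ▸ S.mem_center)
    refine ⟨Subgroup.mem_center_iff.2 fun g => Prod.ext (Subgroup.mem_center_iff.1 (hc h) _)
      (Subgroup.mem_center_iff.1 h5 _), Prod.ext ?_ ?_⟩
    · exact congrArg Subtype.val (hk ▸ pow_card_eq_one' (x := (⟨x.1, h⟩ : π.ker)) :)
    · rcases h4 with h4 | h4 <;> simp [h4, sq, S.mul_self]
  have h5 : (π.comp f).range = π.range := by
    rw [MonoidHom.range_comp, MonoidHom.range_eq_top.2 h2, ← MonoidHom.range_eq_map]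
  have h6 := hbound _ (π.comp f) (h5.trans hr) (fun x hx => Subgroup.mem_center_iff.2 fun g =>
    Subtype.ext (Subgroup.mem_center_iff.1 (h4 x (h3 x.2) hx).1 g)) (by
      refine Subgroup.map_injective (Subgroup.subtype_injective _) ?_
      rw [Subgroup.map_subtype_commutator, ← MonoidHom.range_eq_map, Subgroup.range_subtype]
      refine le_antisymm (Subgroup.commutator_mono h3 h3) (Subgroup.commutator_le.2
        fun a ha b hb => ?_)
      have h6 : ∀ a ∈ L₀, ∃ a' ∈ ⁅L₀, L₀⁆, ∃ c ∈ Subgroup.center _, a = a' * c := fun a ha =>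
        let ⟨x, hx⟩ := h2 a.1
        ⟨x, x.2, x.1⁻¹ * a, (h4 _ (mul_mem (inv_mem (h3 x.2)) ha) (by simp [← hx, f])).1, by simp⟩
      obtain ⟨a, ha', c, hc, rfl⟩ := h6 a ha
      obtain ⟨b, hb', d, hd, rfl⟩ := h6 b hb
      have h7 : ∀ x y, c * (x * (c⁻¹ * y)) = x * y := fun x y => by
        rw [← mul_assoc, ← Subgroup.mem_center_iff.1 hc, mul_assoc, mul_inv_cancel_left]
      have h8 : ∀ x y, d * (x * (d⁻¹ * y)) = x * y := fun x y => by
        rw [← mul_assoc, ← Subgroup.mem_center_iff.1 hd, mul_assoc, mul_inv_cancel_left]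
      rw [commutatorElement_def, mul_inv_rev, mul_inv_rev, mul_assoc _ (b * d), mul_assoc a,
        mul_assoc a, ← mul_assoc, mul_assoc a, h7, mul_assoc _ a⁻¹, mul_assoc b, h8,
        ← mul_assoc, ← mul_assoc]
      exact Subgroup.commutator_mem_commutator ha' hb')
    fun x hx => Subtype.ext (h4 x (h3 x.2) hx).2
  have h7 := h2.bijective_of_nat_card_le (by
    rw [← (π.comp f).ker.card_mul_index, ← π.ker.card_mul_index, Subgroup.index_ker,
      Subgroup.index_ker, h5, hk]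
    exact Nat.mul_le_mul_right _ h6)
  let φ := ((MonoidHom.snd _ _).comp ⁅L₀, L₀⁆.subtype).comp
    (MulEquiv.ofBijective f h7).symm.toMonoidHom
  have h8 : ∀ h, Pin.pi _ (φ h) = π h := fun h => (h0 _ (h3 (Subtype.prop _))).symm.trans
    (congrArg π ((MulEquiv.ofBijective f h7).apply_symm_apply h))
  obtain ⟨w, h9, h10⟩ : ∃ w, π w = 1 ∧ φ w = Pin.zz _ := by
    obtain ⟨x, a1, a2, a3⟩ := Pin.exists_sq (α := Fin n) (by simpa)
    obtain ⟨w, hw⟩ := hr.ge (mem_alternatingGroup.2 a1)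
    refine ⟨w ^ 2, by rw [map_pow, hw, a2], (S.ker _ (by rw [h8, map_pow, hw, a2])).resolve_left
      fun h => one_ne_neg_one (α := Fin n) ?_⟩
    rw [← a3, ← map_one (Pin.rho _), ← h, map_pow, map_pow]
    rcases S.eq_or ((h8 w).trans hw) with h | h <;> simp [h, S.rho_z]
  refine ⟨MulEquiv.ofBijective (φ.codRestrict _ fun h => ?_) ⟨?_, fun x => ?_⟩, h8⟩
  · exact Subgroup.mem_comap.2 (h8 h ▸ hr.le ⟨h, rfl⟩)
  · refine (injective_iff_map_eq_one _).2 fun h e => ?_
    have h11 : φ h = 1 := congrArg Subtype.val e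
    obtain ⟨y, -, hy⟩ := (Nat.card_eq_two_iff' (1 : π.ker)).1 hk
    by_contra h12
    have h13 := (hy ⟨h, (h8 h).symm.trans (by rw [h11, map_one])⟩
      (Subtype.coe_ne_coe.1 h12)).trans
      (hy ⟨w, h9⟩ (fun e => S.ne_mul 1 (by rw [← h10, show w = 1 from congrArg Subtype.val e]; simp))).symm
    exact S.ne_mul 1 (by rw [← h10, ← show h = w from congrArg Subtype.val h13, h11, mul_one])
  · obtain ⟨h, hh⟩ := hr.ge x.2
    rcases S.eq_or (hh.symm.trans (h8 h).symm) with e | e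
    · exact ⟨h, Subtype.ext e.symm⟩
    · exact ⟨w * h, Subtype.ext (by rw [e, ← h10, ← map_mul]; rfl)⟩

theorem exists_wt_spin {n : ℕ} (hn : 5 ≤ n) {H : Type u} [Group H] [Finite H]
    (π : H →* Perm (Fin n)) (hr : π.range = alternatingGroup (Fin n))
    (hc : π.ker ≤ Subgroup.center H) (hk : Nat.card π.ker = 2) (hperf : commutator H = ⊤)
    (hbound : ∀ (L : Type u) [Group L] [Finite L] (σ : L →* Perm (Fin n)),
      σ.range = alternatingGroup (Fin n) → σ.ker ≤ Subgroup.center L → commutator L = ⊤ →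
      (∀ x ∈ σ.ker, x ^ 2 = 1) → Nat.card σ.ker ≤ 2)
    {p : ℕ} (hp : p.Prime) (hp2 : p ≠ 2) (χ : IrrCharacter H) (hχ : ∃ z ∈ π.ker, χ.1 z ≠ χ.1 1) :
    ∃ (χ' : IrrCharacter H) (W : ℕ), χ'.1 1 = χ.1 1 ∧ p ^ W * charDegree χ.1 ∣ n.factorial ∧
      ∀ g, χ.1 g + χ'.1 g ≠ 0 → divLen p (π g) ≤ p * W := by
  have S := spin_pin (Fin n)
  have := Fintype.ofFinite (Pin (Fin n))
  have := Fact.mk hp
  have : Nontrivial (Fin n) := Fin.nontrivial_iff_two_le.2 (by omega)
  obtain ⟨e, he⟩ := exists_hom_pin (by omega) π hr hc hk hperf hbound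
  have h1 : ((alternatingGroup (Fin n)).comap (Pin.pi (Fin n))).index = 2 := by
    rw [Subgroup.index_comap_of_surjective _ S.surj, alternatingGroup.index_eq_two]
  obtain ⟨t, ht⟩ : ∃ t, t ∉ (alternatingGroup (Fin n)).comap (Pin.pi (Fin n)) := by
    by_contra! h
    simp [(Subgroup.eq_top_iff' _).2 h] at h1
  obtain ⟨φ, hφ⟩ := exists_irr_liesOver (irrCongr e χ)
  obtain ⟨c, h2⟩ := exists_add_smul_eq_of_index_two h1 ht hφ
  obtain ⟨w, hw, h3⟩ := hχ
  have h4 : e w = Pin.zz (Fin n) := (S.ker _ ((he w).trans hw)).resolve_left fun h =>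
    h3 (by rw [e.map_eq_one_iff.1 (Subtype.ext h)])
  obtain ⟨W, h5, h6⟩ := S.exists_wt hp2 φ fun g => by
    obtain ⟨d, hd⟩ := center_le_irr_center φ S.mem_center
    have h5 := hd (Pin.zz _ * 1)
    rw [← mul_assoc, S.mul_self, hd, ← mul_assoc, one_mul, eq_comm,
      mul_eq_right₀ (irr_apply_one_ne_zero φ), mul_self_eq_one_iff] at h5
    refine h5.elim (fun h => (h3 ?_).elim) fun h => by rw [hd, h, neg_one_mul]
    have h6 := h2 (e w)
    have h7 := h2 1
    rw [conjSmul_apply_of_eq _ (n := e w) (by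
      rw [h4, Subgroup.mem_center_iff.1 S.mem_center, mul_inv_cancel_right]), h4,
      ← mul_one (Pin.zz _), hd, h, one_mul] at h6
    rw [conjSmul_apply_one] at h7
    have h8 : χ.1 (e.symm (e w)) + χ.1 (e.symm (e w)) = χ.1 (e.symm 1) + χ.1 (e.symm 1) :=
      h6.trans h7.symm
    rw [e.symm_apply_apply, map_one] at h8
    linear_combination h8 / 2
  have h7 : charDegree (irrCongr e χ).1 = charDegree χ.1 :=
    congrArg (fun x => ⌊(χ.1 x).re⌋₊) (map_one e.symm)
  refine ⟨(irrCongr e).symm (t • irrCongr e χ), W, ?_, ?_, fun g hg => he g ▸ h6 _ (e g).2 ?_⟩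
  · change (t • irrCongr e χ).1 (e 1) = _
    rw [map_one, conjSmul_apply_one]
    exact congrArg χ.1 (map_one e.symm)
  · have h8 := irr_degree_dvd_card χ
    rw [← π.ker.card_mul_index, Subgroup.index_ker, hr, hk, two_mul_nat_card_alternatingGroup,
      Nat.card_perm, Nat.card_fin] at h8
    have h9 := Nat.factorization_le_factorization_of_dvd_right (a := p) hφ.degree_dvd
      (irr_degree_pos _).ne' (irr_degree_pos _).ne'
    obtain ⟨k, hk⟩ := h8
    rw [Fintype.card_fin, hk, Nat.factorization_mul (irr_degree_pos _).ne'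
      (right_ne_zero_of_mul (hk ▸ n.factorial_ne_zero)), Finsupp.add_apply] at h5
    rw [hk, mul_comm]
    exact Nat.mul_dvd_mul_left _ ((hp.pow_dvd_iff_le_factorization
      (right_ne_zero_of_mul (hk ▸ n.factorial_ne_zero))).2 (by rw [h7] at h9; omega))
  · refine right_ne_zero_of_mul (h2 (e g) ▸ ?_ : c * _ ≠ 0)
    change χ.1 (e.symm (e g)) + _ ≠ 0
    rwa [e.symm_apply_apply]

end SQ
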