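import Cfsg.Agent.Lib.Sym.SpinLift
import Cfsg.Agent.Lib.Sym.QFock
import Cfsg.Agent.Lib.Sym.Frob
import Cfsg.Agent.Lib.Char.SymSq

/-!
# Induced spin characters

Idempotents built from anticommuting involutions give the characters induced from the spin
representations of the Young subgroups.
-/

set_option autoImplicit false

namespace SQ

open Finset Equiv Equiv.Perm Cfsg CT SFock

section Idem

variable {V : Type*} [AddCommGroup V] [Module ℂ V]

/-- The product of the idempotents attached to consecutive pairs of generators. -/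
noncomputable def idE (y : ℕ → Module.End ℂ V) : ℕ → Module.End ℂ V
  | 0 => 1
  | m + 1 => idE y m * ((2⁻¹ : ℂ) • (1 + Complex.I • (y (2 * m) * y (2 * m + 1))))

theorem idE_nat {y y' : ℕ → Module.End ℂ V} {x : Module.End ℂ V} {ε : ℂ} (hε : ε * ε = 1) {m : ℕ}
    (h : ∀ j < 2 * m, x * y j = ε • (y' j * x)) : x * idE y m = idE y' m * x := by
  induction m with
  | zero => simp [idE]
  | succ m ih =>
    have h1 : x * (y (2 * m) * y (2 * m + 1)) = y' (2 * m) * y' (2 * m + 1) * x := by
      rw [← mul_assoc, h _ (by omega), smul_mul_assoc, mul_assoc, h _ (by omega), mul_smul_comm,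
        smul_smul, hε, one_smul, mul_assoc]
    rw [idE, idE, ← mul_assoc, ih fun j hj => h j (by omega), mul_assoc, mul_assoc]
    simp only [mul_smul_comm, smul_mul_assoc, mul_add, add_mul, h1, mul_one, one_mul]

/-- The first `L` members of `y` are anticommuting involutions. -/
def Car (y : ℕ → Module.End ℂ V) (L : ℕ) : Prop :=
  (∀ j < L, y j * y j = 1) ∧ ∀ j < L, ∀ k < L, j ≠ k → y j * y k = -(y k * y j)

theorem Car.commute {y : ℕ → Module.End ℂ V} {L : ℕ} (h : Car y L) {m j : ℕ} (h1 : 2 * m ≤ j)
    (h2 : j < L) : y j * idE y m = idE y m * y j :=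
  idE_nat (ε := -1) (by simp) fun k hk => by
    rw [h.2 j h2 k (by omega) (by omega), neg_one_smul]

theorem Car.idem {y : ℕ → Module.End ℂ V} {L : ℕ} (h : Car y L) {m : ℕ} (hm : 2 * m ≤ L) :
    idE y m * idE y m = idE y m := by
  induction m with
  | zero => simp [idE]
  | succ m ih =>
    have h1 : y (2 * m) * y (2 * m + 1) * idE y m = idE y m * (y (2 * m) * y (2 * m + 1)) := by
      rw [mul_assoc, h.commute (by omega) (by omega), ← mul_assoc, h.commute le_rfl (by omega),
        mul_assoc]
    have h2 : y (2 * m) * y (2 * m + 1) * (y (2 * m) * y (2 * m + 1)) = -1 := by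
      rw [mul_assoc, ← mul_assoc (y (2 * m + 1)), h.2 _ (by omega) (2 * m) (by omega) (by omega),
        neg_mul, mul_assoc, h.1 _ (by omega), mul_one, mul_neg, h.1 _ (by omega)]
    rw [idE]
    generalize y (2 * m) * y (2 * m + 1) = X at h1 h2
    have h3 : X * (idE y m * X) = -idE y m := by rw [← mul_assoc, h1, mul_assoc, h2, mul_neg, mul_one]
    have h4 := ih (by omega)
    simp only [mul_smul_comm, smul_mul_assoc, mul_add, add_mul, mul_one, mul_assoc, h1, h3, smul_add,
      smul_smul, mul_neg, h4, ← mul_assoc (idE y m) (idE y m)]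
    match_scalars
    · linear_combination (-1 / 4 : ℂ) * Complex.I_mul_I
    · ring

variable [Module.Finite ℂ V]

theorem Car.trace_eq_zero {y : ℕ → Module.End ℂ V} {L : ℕ} (h : Car y L) {m : ℕ} (hm : 2 * m < L)
    {x : Module.End ℂ V} (hx : x * y (2 * m) = -(y (2 * m) * x)) :
    LinearMap.trace ℂ V (x * idE y m) = 0 :=
  trace_eq_zero_of_anti (h.1 _ hm) (by
    rw [mul_assoc, ← h.commute le_rfl hm, ← mul_assoc, ← mul_assoc, hx, neg_mul, neg_neg])

theorem Car.trace_mul {y : ℕ → Module.End ℂ V} {L : ℕ} (h : Car y L) {m : ℕ} (hm : 2 * m ≤ L)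
    {x : Module.End ℂ V} (hx : ∀ j < L, x * y j = y j * x) :
    LinearMap.trace ℂ V (x * idE y m) = LinearMap.trace ℂ V x / 2 ^ m := by
  induction m with
  | zero => simp [idE]
  | succ m ih =>
    have h1 : LinearMap.trace ℂ V (x * idE y m * (y (2 * m) * y (2 * m + 1))) = 0 :=
      trace_eq_zero_of_anti (h.1 (2 * m) (by omega)) (by
        rw [← mul_assoc, ← mul_assoc, ← mul_assoc, ← hx _ (by omega), mul_assoc x,
          h.commute le_rfl (by omega), mul_assoc (x * idE y m), mul_assoc (y _) (y _) (y _),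
          h.2 (2 * m + 1) (by omega) (2 * m) (by omega) (by omega)]
        simp [mul_assoc])
    rw [idE, ← mul_assoc, mul_smul_comm, mul_add, mul_smul_comm, map_smul, map_add, map_smul, h1,
      mul_one, ih (by omega), smul_zero, add_zero, smul_eq_mul, pow_succ]
    ring

variable {G X : Type*} [Group G] [MulAction G X] [Fintype X] [DecidableEq X]

theorem isCharacter_sum_fixed (ρ : G →* Module.End ℂ V) {E : X → Module.End ℂ V}
    (h1 : ∀ x, E x * E x = E x) (h2 : ∀ g x, ρ g * E x = E (g • x) * ρ g) :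
    IsCharacter G fun g => ∑ x with g • x = x, LinearMap.trace ℂ V (ρ g * E x) := by
  let R : Representation ℂ G (X → V) :=
    { toFun := fun g => LinearMap.pi fun x => ρ g ∘ₗ LinearMap.proj (g⁻¹ • x)
      map_one' := by ext; simp
      map_mul' := fun g h => by ext; simp [mul_smul] }
  convert isCharacter_trace_mul_idem R (LinearMap.pi fun x => E x ∘ₗ LinearMap.proj x)
    (LinearMap.ext fun φ => funext fun x => LinearMap.congr_fun (h1 x) _)
    (fun g => LinearMap.ext fun φ => funext fun x => by
      simpa [R] using LinearMap.congr_fun (h2 g (g⁻¹ • x)) (φ (g⁻¹ • x))) using 2 with g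
  have h3 : ∀ f : Module.End ℂ (X → V), f =
      ∑ x, (f ∘ₗ LinearMap.single ℂ (fun _ => V) x) ∘ₗ LinearMap.proj x := fun f => by
    refine LinearMap.ext fun v => ?_
    simp [← map_sum, Finset.univ_sum_single]
  rw [h3 (_ * _), map_sum, sum_filter]
  refine sum_congr rfl fun x _ => ?_
  rw [LinearMap.trace_comp_comm']
  split_ifs with h
  · congr 1
    ext v
    simp [R, inv_smul_eq_iff.2 h.symm]
  · rw [← map_zero (LinearMap.trace ℂ V)]
    congr 1
    ext v
    simp [R, mt inv_smul_eq_iff.1 (Ne.symm h)]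

theorem isGen_sum_fixed [Finite G] (ρ : G →* Module.End ℂ V) {E : X → Module.End ℂ V}
    (h1 : ∀ x, E x * E x = E x) (h2 : ∀ g x, ρ g * E x = E (g • x) * ρ g) {c : X → ℤ}
    (h3 : ∀ (g : G) x, c (g • x) = c x) : IsGeneralizedCharacter G
      fun g => ∑ x with g • x = x, c x * LinearMap.trace ℂ V (ρ g * E x) := by
  convert isGen_sum (univ.image c) _ fun v _ => (isCharacter_sum_fixed ρ
    (E := fun x => if c x = v then E x else 0) (fun x => by split_ifs <;> simp [h1])
    (fun g x => by rw [h3]; split_ifs <;> simp [h2])).isGen.zsmul v using 2 with g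
  simp only [Finset.sum_apply, Pi.smul_apply, smul_eq_mul, mul_sum]
  rw [sum_comm]
  refine sum_congr rfl fun x _ => ?_
  simp [apply_ite]

end Idem

variable {α : Type*} [LinearOrder α] [Fintype α] [DecidableEq α] {K : Type*} [DecidableEq K]

/-- The normalised sum of the generators of colour `k`. -/
noncomputable def bs (κ : α ⊕ Option α → K) (k : K) : Op α :=
  ((√(#{j | κ j = k}) : ℝ) : ℂ)⁻¹ • ∑ j with κ j = k, gg j

omit [Fintype α] in
theorem sum_gg_mul_self (B : Finset (α ⊕ Option α)) :
    (∑ j ∈ B, gg j) * ∑ j ∈ B, gg j = (B.card : ℂ) • 1 := by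
  induction B using Finset.induction_on with
  | empty => simp
  | insert a B ha ih =>
    have h : gg a * ∑ j ∈ B, gg j = -((∑ j ∈ B, gg j) * gg a) := by
      rw [mul_sum, sum_mul, ← sum_neg_distrib]
      exact sum_congr rfl fun j hj => gg_anti fun e => ha (e ▸ hj)
    rw [sum_insert ha, mul_add, add_mul, add_mul, ih, h, gg_mul_self, card_insert_of_notMem ha]
    simp only [Nat.cast_succ, add_smul, one_smul]
    abel

theorem bs_mul_self {κ : α ⊕ Option α → K} {k : K} (h : k ∈ univ.image κ) : bs κ k * bs κ k = 1 := by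
  obtain ⟨j, -, rfl⟩ := mem_image.1 h
  have h1 : (#{i | κ i = κ j} : ℂ) ≠ 0 := by
    exact_mod_cast card_ne_zero_of_mem (a := j) (by simp)
  rw [bs, smul_mul_smul_comm, sum_gg_mul_self, smul_smul, ← mul_inv, ← Complex.ofReal_mul,
    Real.mul_self_sqrt (Nat.cast_nonneg _), Complex.ofReal_natCast, inv_mul_cancel₀ h1, one_smul]

omit [DecidableEq α] in
theorem bs_anti (κ : α ⊕ Option α → K) {k k' : K} (h : k ≠ k') :
    bs κ k * bs κ k' = -(bs κ k' * bs κ k) := by
  rw [bs, bs, smul_mul_smul_comm, smul_mul_smul_comm, mul_comm (_ : ℂ)⁻¹, ← smul_neg, sum_mul_sum,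
    sum_mul_sum, sum_comm]
  simp only [← sum_neg_distrib]
  refine congrArg _ (sum_congr rfl fun i hi => sum_congr rfl fun j hj => gg_anti fun e => h ?_)
  rw [← (mem_filter.1 hi).2, ← (mem_filter.1 hj).2, e]

theorem Lift.bs {σ : Perm α} {M : Op α} (h : Lift σ M) (κ : α ⊕ Option α → K) (k : K) :
    M * bs κ k = sn σ • (bs (κ ∘ Sum.map σ.symm id) k * M) := by
  have h1 : ∀ j, j ∈ ({j | κ j = k} : Finset _) ↔
      σ.sumCongr (Equiv.refl _) j ∈ ({j | (κ ∘ Sum.map σ.symm id) j = k} : Finset _) := by
    rintro (j | j) <;> simp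
  rw [SQ.bs, SQ.bs, mul_smul_comm, smul_mul_assoc, smul_comm, ← card_equiv _ h1, mul_sum, sum_mul,
    smul_sum (r := sn σ)]
  exact congrArg _ (sum_equiv _ h1 fun j _ => h j)

/-- An enumeration of a finite set. -/
noncomputable def enu [Inhabited K] (S : Finset K) (j : ℕ) : K :=
  if h : j < S.card then S.equivFin.symm ⟨j, h⟩ else default

theorem car_bs [Inhabited K] (κ : α ⊕ Option α → K) :
    Car (fun j => bs κ (enu (univ.image κ) j)) (univ.image κ).card :=
  ⟨fun j hj => bs_mul_self (by rw [enu, dif_pos hj]; exact Subtype.prop _),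
    fun j hj k hk h => bs_anti κ (by simpa [enu, hj, hk, ← Subtype.ext_iff] using h)⟩

theorem Lift.trace_eq_zero {σ : Perm α} {M : Op α} (h : Lift σ M) (hs : sign σ = -1) :
    LinearMap.trace ℂ _ M = 0 :=
  trace_eq_zero_of_anti (gg_mul_self (.inr none)) (by simp [h (.inr none), sn, hs])

omit [LinearOrder α] in
theorem XQ_parts (T : Finset ℕ) (σ : Perm α) : XQ T σ.partition.parts =
    ∑ f : α → Fin T.card with f ∘ σ = f,
      cv fun i => (en T.card T i : ℤ) - #{a | f a = i} := by
  rw [XQ, PP_parts, map_sum]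
  refine sum_congr rfl fun f _ => ?_
  simp only [MvPolynomial.X]
  rw [← MvPolynomial.monomial_sum_one, Ph_monomial]
  congr 1
  funext i
  simp [Finsupp.finsetSum_apply, Finsupp.single_apply]

/-- The spin class function of a strict partition agrees with a generalized character. -/
theorem exists_isGen {G : Type*} [Group G] [Finite G] {π : G →* Perm α} {ρ : G →* Op α}
    (hρ : ∀ g, Lift (π g) (ρ g)) {T : Finset ℕ} (hT : 0 ∉ T) {k : ℕ}
    (hk : Fintype.card α ≤ 2 * k + T.card + 1) : ∃ Θ, IsGeneralizedCharacter G Θ ∧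
      (∀ g, sign (π g) = 1 → Θ g = 2 ^ k / 2 ^ Fintype.card α * LinearMap.trace ℂ _ (ρ g) *
        XQ T (π g).partition.parts) ∧
      (Fintype.card α ≤ 2 * k + T.card → ∀ g, sign (π g) = -1 → Θ g = 0) := by
  let _ : MulAction G (α → Fin T.card) :=
    { smul := fun g f => f ∘ (π g).symm
      one_smul := fun f => by change f ∘ _ = f; rw [map_one]; rfl
      mul_smul := fun g h f => by change f ∘ _ = (f ∘ _) ∘ _; rw [map_mul]; rfl }
  have h0 : ∀ (g : G) (f : α → Fin T.card), g • f = f ∘ (π g).symm := fun _ _ => rfl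
  let b : (α → Fin T.card) → Fin T.card → ℤ := fun f i => (en T.card T i : ℤ) - #{a | f a = i}
  let j : (α → Fin T.card) → ℕ := fun f => #{i | 0 < b f i}
  have h1 : ∀ (g : G) f, b (g • f) = b f := fun g f => funext fun i => by
    simp only [b, h0]
    rw [card_equiv (π g).symm (t := {a | f a = i}) (by simp)]
  choose z hz using fun β : Fin T.card → ℤ => exists_int_cv β
  let κ : (α → Fin T.card) → α ⊕ Option α → Fin T.card ⊕ Option α := fun f => Sum.map f id
  have h2 : ∀ (g : G) f, κ (g • f) = κ f ∘ Sum.map (π g).symm id := fun g f => by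
    simp [κ, h0, Sum.map_comp_map]
  have h3 : ∀ (g : G) f, univ.image (κ (g • f)) = univ.image (κ f) := fun g f => by
    rw [h2, ← image_image]
    exact congrArg _ (image_univ_equiv ((π g).symm.sumCongr (Equiv.refl _)))
  have h4 : ∀ f, T.card + Fintype.card α + 1 ≤ #(univ.image (κ f)) + j f := fun f => by
    have h4 : univ.image (κ f) = (univ.image f).disjSum univ := by
      ext (a | a) <;> simp [κ]
    have h5 : (univ : Finset (Fin T.card)) ⊆ univ.image f ∪ univ.filter fun i => 0 < b f i := fun i _ => by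
      by_cases h : i ∈ univ.image f
      · exact mem_union_left _ h
      · refine mem_union_right _ (mem_filter.2 ⟨mem_univ _, ?_⟩)
        have := Nat.pos_of_ne_zero fun e => hT (e ▸ en_mem rfl i)
        rw [mem_image, not_exists] at h
        simpa [b, filter_eq_empty_iff.2 fun a _ => not_and.1 (h a) (mem_univ _)]
    have h6 := (card_le_card h5).trans (card_union_le _ _)
    simp only [h4, card_disjSum, card_univ, Fintype.card_option, Fintype.card_fin, j] at h6 ⊢
    omega
  let y := fun f i => bs (κ f) (enu (univ.image (κ f)) i)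
  have h5 : ∀ (g : G) f i, ρ g * y f i = sn (π g) • (y (g • f) i * ρ g) := fun g f i => by
    simp only [y, h3]
    rw [h2]
    exact (hρ g).bs _ _
  refine ⟨_, isGen_sum_fixed ρ (E := fun f => idE (y f) (Fintype.card α - (k + j f)))
    (c := fun f => z (b f) * 2 ^ (k + j f - Fintype.card α))
    (fun f => (car_bs _).idem (by have := h4 f; omega))
    (fun g f => by simp only [j, h1]; exact idE_nat (sn_mul_self _) fun i _ => h5 g f i)
    (fun g f => by simp only [j, h1]), fun g hg => ?_, fun hk g hg => ?_⟩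
  · rw [XQ_parts, mul_sum]
    refine sum_congr (filter_congr fun f _ => ?_) fun f hf => ?_
    · rw [h0, Equiv.comp_symm_eq, eq_comm]
    have h6 : g • f = f := by
      rw [h0, Equiv.comp_symm_eq, (mem_filter.1 hf).2]
    rw [(car_bs _).trace_mul (by have := h4 f; omega) fun i _ => by
      simpa [sn, hg, h6] using h5 g f i, hz]
    have h7 : (2 : ℂ) ^ (k + j f - Fintype.card α) * 2 ^ Fintype.card α =
        2 ^ k * 2 ^ j f * 2 ^ (Fintype.card α - (k + j f)) := by
      rw [← pow_add, ← pow_add, ← pow_add]; congr 1; omega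
    push_cast
    field_simp
    linear_combination z (b f) * LinearMap.trace ℂ _ (ρ g) * h7
  · refine sum_eq_zero fun f hf => ?_
    rw [(car_bs _).trace_eq_zero (by
      have := h4 f; have := card_pos.2 (univ_nonempty.image (κ f)); omega) (by
      simpa [sn, hg, (mem_filter.1 hf).2] using h5 g f _), mul_zero]

end SQ
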