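import Cfsg.Agent.Lib.Sym.Jw

/-!
# Lifts of permutations to the Clifford algebra
-/

set_option autoImplicit false

namespace SQ

open Finset Equiv Equiv.Perm

variable {α : Type*} [LinearOrder α]

/-- All Clifford generators. -/
noncomputable def gg : α ⊕ Option α → Op α
  | .inl a => cc a
  | .inr (some a) => Complex.I • (cc a * pp a)
  | .inr none => om α

theorem gg_mul_self (j : α ⊕ Option α) : gg j * gg j = 1 := by
  rcases j with a | _ | a
  · exact cc_mul_self a
  · exact om_mul_self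
  · simp only [gg, smul_mul_smul_comm, Complex.I_mul_I]
    rw [mul_assoc, ← mul_assoc (pp a), ← neg_neg (pp a * cc a), ← cc_pp]
    simp [mul_assoc, pp_mul_self, cc_mul_self]

theorem gg_anti {j k : α ⊕ Option α} (h : j ≠ k) : gg j * gg k = -(gg k * gg j) := by
  have h1 : ∀ a b : α, cc a * (cc b * pp b) = -(cc b * pp b * cc a) := fun a b => by
    by_cases h : a = b
    · rw [h, mul_assoc, cc_pp, mul_neg]
    · rw [← mul_assoc, cc_anti h, neg_mul, mul_assoc, mul_assoc, cc_pp_of_ne h]
  have h2 : ∀ a : α, cc a * pp a * om α = -(om α * (cc a * pp a)) := fun a => by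
    rw [mul_assoc, pp, om, kk_comm, ← om, ← mul_assoc, cc_om, neg_mul, mul_assoc]
  rcases j with a | _ | a <;> rcases k with b | _ | b <;>
    simp only [gg, mul_smul_comm, smul_mul_assoc, h1, h2, cc_om, smul_neg, neg_neg]
  · exact cc_anti fun e => h (e ▸ rfl)
  · exact absurd rfl h
  · have h3 : a ≠ b := fun e => h (e ▸ rfl)
    rw [mul_assoc, ← mul_assoc (pp a), ← cc_pp_of_ne h3.symm, mul_assoc, pp, pp, kk_comm, ← pp, ← pp,
      ← mul_assoc (cc b), ← mul_assoc, h1]
    simp [mul_assoc]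

theorem trace_eq_zero_of_anti {V : Type*} [AddCommGroup V] [Module ℂ V] [Module.Finite ℂ V]
    {C X : Module.End ℂ V} (hC : C * C = 1) (h : C * X = -(X * C)) : LinearMap.trace ℂ V X = 0 := by
  have h1 := LinearMap.trace_mul_comm ℂ C (X * C)
  rw [← mul_assoc, h, neg_mul, mul_assoc, hC, mul_one, map_neg] at h1
  linear_combination h1 / -2

/-- The lift of a transposition. -/
noncomputable def tv (a b : α) : Op α := cc a - cc b

theorem tv_mul_self {a b : α} (h : a ≠ b) : tv a b * tv a b = (2 : ℂ) • 1 := by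
  simp only [tv, mul_sub, sub_mul, cc_mul_self, cc_anti h, two_smul]
  abel

theorem isUnit_tv {a b : α} (h : a ≠ b) : IsUnit (tv a b) :=
  ⟨⟨tv a b, (2⁻¹ : ℂ) • tv a b, by simp [tv_mul_self h, smul_smul],
    by simp [tv_mul_self h, smul_smul]⟩, rfl⟩

variable [Fintype α] [DecidableEq α]

/-- The sign of a permutation as a complex number. -/
noncomputable def sn (σ : Perm α) : ℂ := ((sign σ : ℤ) : ℂ)

omit [LinearOrder α] in
theorem sn_mul (σ τ : Perm α) : sn (σ * τ) = sn σ * sn τ := by simp [sn]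

omit [LinearOrder α] in
theorem sn_mul_self (σ : Perm α) : sn σ * sn σ = 1 := by
  rcases Int.units_eq_one_or (sign σ) with h | h <;> simp [sn, h]

/-- `M` conjugates the Clifford generators as `σ` permutes them, up to the sign of `σ`. -/
def Lift (σ : Perm α) (M : Op α) : Prop := ∀ j, M * gg j = sn σ • (gg (Sum.map σ id j) * M)

theorem Lift.cc {σ : Perm α} {M : Op α} (h : Lift σ M) (a : α) : M * cc a = sn σ • (cc (σ a) * M) :=
  h (.inl a)

theorem lift_one : Lift (1 : Perm α) 1 := fun j => by simp [sn]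

theorem Lift.mul {σ τ : Perm α} {M N : Op α} (h : Lift σ M) (h' : Lift τ N) : Lift (σ * τ) (M * N) :=
  fun j => by
  rw [mul_assoc, h', mul_smul_comm, ← mul_assoc, h, Sum.map_map, smul_mul_assoc, smul_smul, sn_mul,
    mul_comm (sn τ), mul_assoc]
  rfl

theorem Lift.smul {σ : Perm α} {M : Op α} (h : Lift σ M) (c : ℂ) : Lift σ (c • M) := fun j => by
  rw [smul_mul_assoc, h, mul_smul_comm, smul_comm]

theorem Lift.inv {σ : Perm α} {M N : Op α} (h : Lift σ M) (h1 : M * N = 1) : Lift σ⁻¹ N := fun j => by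
  have h2 := congrArg (N * · * N) (h (Sum.map ⇑σ⁻¹ id j))
  simp only [Sum.map_map, mul_assoc, h1, mul_one, mul_smul_comm, smul_mul_assoc] at h2
  rw [← mul_assoc, mul_eq_one_comm.1 h1, one_mul] at h2
  rw [h2, smul_smul, show sn σ⁻¹ = sn σ by simp [sn], sn_mul_self, one_smul]
  rcases j with a | a <;> simp

theorem lift_tv {a b : α} (h : a ≠ b) : Lift (swap a b) (tv a b) := fun j => by
  rw [sn, sign_swap h, tv, sub_mul, mul_sub]
  simp only [Units.val_neg, Units.val_one, Int.cast_neg, Int.cast_one, neg_one_smul]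
  by_cases h1 : j = .inl a
  · simp [h1, gg, cc_mul_self]
  by_cases h2 : j = .inl b
  · simp [h2, gg, cc_mul_self]
  rw [show Sum.map (swap a b) id j = j by
      rcases j with c | c
      · simp [swap_apply_of_ne_of_ne (by simpa using h1) (by simpa using h2 : c ≠ b)]
      · rfl,
    show gg j * cc a = _ from gg_anti h1, show gg j * cc b = _ from gg_anti h2]
  simp only [gg]
  abel

theorem Lift.exists_eq_smul {σ : Perm α} {M N : Op α} (h : Lift σ M) (h' : Lift σ N) (hN : IsUnit N) :
    ∃ κ : ℂ, M = κ • N := by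
  obtain ⟨N', h1⟩ := hN.exists_right_inv
  have h2 := (h'.inv h1).mul h
  rw [inv_mul_cancel] at h2
  have h3 : ∀ a, N' * M * SQ.cc a = SQ.cc a * (N' * M) := fun a => by simpa [sn] using h2.cc a
  obtain ⟨κ, h4⟩ := exists_eq_smul_one h3 fun a => by
    have h4 := h2 (.inr (some a))
    simp only [gg, sn, map_one, Units.val_one, Int.cast_one, one_smul, Sum.map_inr, id, mul_smul_comm,
      smul_mul_assoc, smul_right_inj Complex.I_ne_zero] at h4
    rw [← mul_assoc, h3, mul_assoc, mul_assoc (SQ.cc a)] at h4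
    simpa [← mul_assoc, cc_mul_self] using congrArg (SQ.cc a * ·) h4
  exact ⟨κ, by simpa [← mul_assoc, h1] using congrArg (N * ·) h4⟩

theorem exists_lift (σ : Perm α) : ∃ C, IsUnit C ∧ Lift σ C ∧
    ∀ M : Op α, (∀ a ∈ σ.support, M * cc a = -(cc a * M)) → M * C = sn σ • (C * M) := by
  induction h : σ.support.card using Nat.strong_induction_on generalizing σ with | _ n ih =>
  by_cases h1 : σ = 1
  · exact ⟨1, isUnit_one, h1 ▸ lift_one, fun M _ => by simp [h1, sn]⟩
  obtain ⟨a, ha⟩ := nonempty_iff_ne_empty.2 (mt support_eq_empty_iff.1 h1)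
  have h2 := mem_support.1 ha
  obtain ⟨C, h3, h4, h5⟩ := ih _ (h ▸ card_support_swap_mul h2) _ rfl
  refine ⟨tv a (σ a) * C, (isUnit_tv h2.symm).mul h3, by simpa using (lift_tv h2.symm).mul h4,
    fun M hM => ?_⟩
  have h6 : M * tv a (σ a) = -(tv a (σ a) * M) := by
    rw [tv, mul_sub, sub_mul, hM a ha, hM _ (apply_mem_support.2 ha)]; abel
  rw [← mul_assoc, h6, neg_mul, mul_assoc, h5 M fun b hb =>
    hM b (mem_support_swap_mul_imp_mem_support_ne hb).1, sn_mul, sn, sign_swap h2.symm]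
  simp [mul_assoc]

omit [DecidableEq α] in
theorem trace_tv_tv {x y w : α} (h1 : x ≠ y) (h2 : w ≠ x) (h3 : w ≠ y) {B : Op α}
    (hx : Commute (cc x) B) (hy : Commute (cc y) B) :
    LinearMap.trace ℂ _ (tv x y * tv y w * B) = -LinearMap.trace ℂ _ B ∧
      LinearMap.trace ℂ _ (tv y w * tv x y * B) = -LinearMap.trace ℂ _ B := by
  have h4 : ∀ {a b : α}, a ≠ b → Commute (cc a) B → LinearMap.trace ℂ _ (cc a * cc b * B) = 0 :=
    fun {a b} h hB => trace_eq_zero_of_anti (cc_mul_self a) (by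
      rw [mul_assoc _ B, ← hB.eq, ← mul_assoc (cc a * cc b), mul_assoc (cc a) (cc b) (cc a),
        cc_anti h.symm]
      simp [mul_assoc])
  simp [tv, mul_sub, sub_mul, add_mul, cc_mul_self, cc_anti h2, cc_anti h3, h4 h1 hx, h4 h1.symm hy,
    h4 h2.symm hx, h4 h3.symm hy]

/-- A pair of mutually inverse lifts with known traces. -/
def TrLift (σ : Perm α) (k : ℕ) : Prop := ∃ M N : Op α, Lift σ M ∧ M * N = 1 ∧
  ∀ B, (∀ a ∈ σ.support, Commute (cc a) B) → LinearMap.trace ℂ _ (M * B) =
    (-1 / 2) ^ k * LinearMap.trace ℂ _ B ∧ LinearMap.trace ℂ _ (N * B) = (-1 / 2) ^ k * LinearMap.trace ℂ _ B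

theorem Lift.commute {σ : Perm α} {M : Op α} (h : Lift σ M) (hs : sign σ = 1) {a : α} (ha : σ a = a) :
    Commute (SQ.cc a) M := by
  simpa [sn, hs, ha, Commute, SemiconjBy] using (h.cc a).symm

theorem trLift_one : TrLift (1 : Perm α) 0 := ⟨1, 1, lift_one, mul_one 1, by simp⟩

theorem trLift_of_isCycle (k : ℕ) {f : Perm α} (hf : f.IsCycle) (hk : f.support.card = 2 * k + 3) :
    TrLift f (k + 1) := by
  induction k using Nat.strong_induction_on generalizing f with | _ k ih =>
  have h0 : ∀ {g : Perm α}, g.IsCycle → g.support.card ≠ 2 → ∀ {x}, g x ≠ x → g (g x) ≠ x :=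
    fun hg h x hx e => h (by rw [hg.eq_swap_of_apply_apply_eq_self hx e, card_support_swap hx.symm])
  obtain ⟨x, hx, -⟩ := id hf
  have h1 := h0 hf (by omega) hx
  have h2 : f (f x) ≠ f x := f.injective.ne hx
  have h3 : (swap x (f x) * f) (f x) = f (f x) := swap_apply_of_ne_of_ne h1 h2
  have h4 := support_swap_mul_eq f x h1
  have h5 : (swap x (f x) * f).support.card = 2 * k + 2 := by
    rw [h4, card_sdiff_of_subset (by simpa), hk, card_singleton]; rfl
  set g := swap (f x) (f (f x)) * (swap x (f x) * f) with hg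
  have h6 : ∀ a ∈ g.support, a ∈ f.support ∧ a ≠ x ∧ a ≠ f x := fun a ha => by
    rw [hg, ← h3] at ha
    have := mem_support_swap_mul_imp_mem_support_ne ha
    simpa [h4, and_assoc] using this
  have h7 : sign g = 1 := by
    simp [hg, sign_swap hx.symm, sign_swap h2.symm, hf.sign, hk, pow_succ]
  obtain ⟨M, N, h8, h9, h10⟩ : TrLift g k := by
    cases k with
    | zero =>
      have := card_support_swap_mul (h3.trans_ne h2)
      rw [h3, h5] at this
      rw [card_support_le_one.1 (Nat.le_of_lt_succ this : g.support.card ≤ 1)]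
      exact trLift_one
    | succ k =>
      have h8 := h0 (hf.swap_mul hx h1) (by omega) (h3.trans_ne h2)
      refine ih k k.lt_succ_self (hg ▸ h3 ▸ (hf.swap_mul hx h1).swap_mul (h3.trans_ne h2) h8) ?_
      rw [hg, ← h3, support_swap_mul_eq _ _ h8, card_sdiff_of_subset (by
        simpa using h3.trans_ne h2), h5, card_singleton]
      rfl
  have h11 : ∀ a, a = x ∨ a = f x → g a = a := fun a ha => notMem_support.1 fun e => by
    have := h6 a e; tauto
  refine ⟨(2⁻¹ : ℂ) • (tv x (f x) * tv (f x) (f (f x)) * M),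
    (2⁻¹ : ℂ) • (N * (tv (f x) (f (f x)) * tv x (f x))), ?_, ?_, fun B hB => ?_⟩
  · simpa [hg, mul_assoc] using (((lift_tv hx.symm).mul (lift_tv h2.symm)).mul h8).smul 2⁻¹
  · rw [smul_mul_smul_comm, mul_assoc, ← mul_assoc M, h9, one_mul, mul_assoc, ← mul_assoc (tv (f x) _),
      tv_mul_self h2.symm]
    simp only [tv_mul_self hx.symm, smul_smul, smul_mul_assoc, one_mul, mul_smul_comm]
    norm_num
  · have h12 := h10 B fun a ha => hB a (h6 a ha).1
    have h13 := hB x (mem_support.2 hx)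
    have h14 := hB _ (mem_support.2 h2)
    have h15 := fun a ha => (h8.inv h9).commute (by simpa) (inv_eq_iff_eq.2 (h11 a ha).symm)
    rw [smul_mul_assoc, smul_mul_assoc, map_smul, map_smul, mul_assoc _ M, mul_assoc N,
      LinearMap.trace_mul_comm ℂ N, mul_assoc _ B,
      (trace_tv_tv hx.symm h1 h2 ((h8.commute h7 (h11 _ (.inl rfl))).mul_right h13)
        ((h8.commute h7 (h11 _ (.inr rfl))).mul_right h14)).1,
      (trace_tv_tv hx.symm h1 h2 (h13.mul_right (h15 _ (.inl rfl)))
        (h14.mul_right (h15 _ (.inr rfl)))).2, LinearMap.trace_mul_comm ℂ B, h12.1, h12.2]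
    simp only [smul_eq_mul, pow_succ, and_self]
    ring

omit [LinearOrder α] in
theorem sign_eq_one_of_odd {σ : Perm α} (h : ∀ r ∈ σ.cycleType, Odd r) : sign σ = 1 := by
  rw [sign_of_cycleType']
  exact Multiset.prod_eq_one fun x hx => by
    obtain ⟨r, hr, rfl⟩ := Multiset.mem_map.1 hx
    rw [(h r hr).neg_one_pow, neg_neg]

theorem exists_trLift {σ : Perm α} (h : ∀ r ∈ σ.cycleType, Odd r) :
    ∃ k, 2 * k + σ.cycleType.card = σ.cycleType.sum ∧ TrLift σ k := by
  induction σ using cycle_induction_on with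
  | base_one => exact ⟨0, by simp, trLift_one⟩
  | base_cycles σ hσ =>
    obtain ⟨k, hk⟩ := h _ (hσ.cycleType ▸ Multiset.mem_singleton_self _)
    have := hσ.two_le_card_support
    exact ⟨k - 1 + 1, by simp [hσ.cycleType]; omega, trLift_of_isCycle _ hσ (by omega)⟩
  | induction_disjoint σ τ hd _ h1 h2 =>
    rw [hd.cycleType_mul] at h ⊢
    have h3 := fun r hr => h r (Multiset.mem_add.2 (.inl hr))
    have h4 := fun r hr => h r (Multiset.mem_add.2 (.inr hr))
    obtain ⟨k, hk, M, N, a1, a2, a3⟩ := h1 h3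
    obtain ⟨l, hl, M', N', b1, b2, b3⟩ := h2 h4
    refine ⟨k + l, by simp; omega, M * M', N' * N, a1.mul b1,
      by rw [mul_assoc, ← mul_assoc M', b2, one_mul, a2], fun B hB => ?_⟩
    rw [hd.support_mul] at hB
    have h5 := fun a ha => hB a (mem_union_left _ ha)
    have h6 := fun a ha => hB a (mem_union_right _ ha)
    rw [mul_assoc, mul_assoc, (a3 _ fun a ha => (b1.commute (sign_eq_one_of_odd h4)
      ((hd a).resolve_left (mem_support.1 ha))).mul_right (h5 a ha)).1, (b3 B h6).1,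
      (b3 _ fun a ha => ((a1.inv a2).commute (by simpa using sign_eq_one_of_odd h3) (inv_eq_iff_eq.2
        ((hd a).resolve_right (mem_support.1 ha)).symm)).mul_right (h6 a ha)).2, (a3 B h5).2]
    constructor <;> ring

theorem Lift.trace_mul_trace {σ : Perm α} (h : ∀ r ∈ σ.partition.parts, Odd r) {M N : Op α}
    (h1 : Lift σ M) (h2 : M * N = 1) : LinearMap.trace ℂ _ M * LinearMap.trace ℂ _ N =
      2 ^ (Fintype.card α + σ.partition.parts.card) := by
  rw [parts_partition] at h ⊢
  obtain ⟨k, hk, M', N', a1, a2, a3⟩ := exists_trLift fun r hr => h r (Multiset.mem_add.2 (.inl hr))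
  obtain ⟨κ, rfl⟩ := h1.exists_eq_smul a1 (IsUnit.of_mul_eq_one _ a2)
  have h3 : N' = κ • N := by
    rw [← mul_one N', ← h2, smul_mul_assoc, mul_smul_comm, ← mul_assoc, mul_eq_one_comm.1 a2, one_mul]
  have h4 := a3 1 fun _ _ => Commute.one_right _
  simp only [mul_one, h3, map_smul, smul_eq_mul, trace_one_op] at h4
  have h5 := σ.support.card_le_univ
  rw [sum_cycleType] at hk
  have h6 : (2 : ℂ) ^ Fintype.card α * 2 ^ Fintype.card α = 2 ^ (Fintype.card α +
      (σ.cycleType.card + (Fintype.card α - σ.support.card))) * (2 ^ 2) ^ k := by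
    rw [← pow_mul, ← pow_add, ← pow_add]; congr 1; omega
  have h7 : ((-1 : ℂ) / 2) ^ k * (-1 / 2) ^ k * (2 ^ 2) ^ k = 1 := by
    rw [← mul_pow, ← mul_pow]; norm_num
  rw [map_smul, smul_eq_mul, mul_comm κ, mul_assoc, h4.1, h4.2, Multiset.card_add,
    Multiset.card_replicate, mul_mul_mul_comm, h6]
  linear_combination (2 : ℂ) ^ (Fintype.card α +
    (σ.cycleType.card + (Fintype.card α - σ.support.card))) * h7

theorem Lift.exists_anti {σ : Perm α} (hs : sign σ = 1) (h : ¬ ∀ r ∈ σ.partition.parts, Odd r)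
    {M : Op α} (h1 : Lift σ M) : ∃ c C, sign c = -1 ∧ Commute c σ ∧ IsUnit C ∧ Lift c C ∧
      C * M = -(M * C) := by
  obtain ⟨r, hr, h2⟩ : ∃ r ∈ σ.cycleType, Even r := by
    by_contra! h2
    refine h fun r hr => ?_
    rw [parts_partition] at hr
    rcases Multiset.mem_add.1 hr with h3 | h3
    exacts [Nat.not_even_iff_odd.1 (h2 r h3), Multiset.eq_of_mem_replicate h3 ▸ odd_one]
  obtain ⟨c, hc, rfl⟩ := Multiset.mem_map.1 hr
  have h3 := mem_cycleFactorsFinset_iff.1 hc
  have h4 : sign c = -1 := by rw [h3.1.sign, Even.neg_one_pow (n := c.support.card) h2]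
  obtain ⟨C, h5, h6, h7⟩ := exists_lift c
  obtain ⟨C', h8⟩ := h5.exists_right_inv
  have h9 := h7 (C' * M) fun a ha => by
    simpa [sn, hs, h4, ← h3.2 a ha] using ((h6.inv h8).mul h1).cc a
  refine ⟨c, C, h4, self_mem_cycle_factors_commute hc, h5, h6, ?_⟩
  have := congrArg (C * ·) h9
  simp only [← mul_assoc, h8, one_mul, sn, h4, mul_smul_comm] at this
  simp [this]

end SQ
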